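import Cfsg.Agent.H538.RealGraph

/-!
# Sylow subgroups of a normalised subgroup (helper538)
-/

set_option autoImplicit false

open scoped Pointwise

namespace Cfsg.Agent.H538.ConjAut

open Cfsg.Agent.H538.RealGraph

variable {G : Type*} [Group G]

/-- conjugation by `z` on a subgroup normalised by `z` -/
def conjAut (K : Subgroup G) (z : G) (hz : ∀ k, k ∈ K ↔ z * k * z⁻¹ ∈ K) : MulAut K where
  toFun k := ⟨z * k * z⁻¹, (hz k).1 k.2⟩
  invFun k := ⟨z⁻¹ * k * z, (hz _).2 (by
    have : z * (z⁻¹ * (k : G) * z) * z⁻¹ = k := by group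
    rw [this]; exact k.2)⟩
  left_inv k := Subtype.ext (by
    change z⁻¹ * (z * k * z⁻¹) * z = k
    group)
  right_inv k := Subtype.ext (by
    change z * (z⁻¹ * k * z) * z⁻¹ = k
    group)
  map_mul' a b := Subtype.ext (by
    change z * (a * b) * z⁻¹ = (z * a * z⁻¹) * (z * b * z⁻¹)
    group)

theorem conjAut_coe (K : Subgroup G) (z : G) (hz : ∀ k, k ∈ K ↔ z * k * z⁻¹ ∈ K) (k : K) :
    ((conjAut K z hz k : K) : G) = z * k * z⁻¹ := rfl

theorem conjAut_mem_smul (K : Subgroup G) (z : G) (hz : ∀ k, k ∈ K ↔ z * k * z⁻¹ ∈ K) {p : ℕ}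
    (R : Sylow p K) {k : K} (hk : k ∈ R) : conjAut K z hz k ∈ conjAut K z hz • R := by
  have := Subgroup.smul_mem_pointwise_smul k (conjAut K z hz) (R : Subgroup K) hk
  exact this

/-- an involution acting on a subgroup `K` of odd order normalises some Sylow `p`-subgroup -/
theorem exists_fixed_sylow [Finite G] (K : Subgroup G) (z : G)
    (hz : ∀ k, k ∈ K ↔ z * k * z⁻¹ ∈ K) (hzz : z * z = 1) (hodd : Odd (Nat.card K)) (p : ℕ)
    [hp : Fact p.Prime] : ∃ R : Sylow p K, ∀ k ∈ R, conjAut K z hz k ∈ R := by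
  by_contra hcon
  push Not at hcon
  set φ := conjAut K z hz with hφ
  have h1 : Even (Set.univ : Set (Sylow p K)).ncard := by
    refine even_ncard_of_involution Set.univ (fun R => φ • R) (fun _ _ => Set.mem_univ _) ?_ ?_
    · intro R _
      change φ • φ • R = R
      rw [smul_smul]
      have : φ * φ = 1 := by
        ext k
        change z * (z * k * z⁻¹) * z⁻¹ = k
        calc z * (z * k * z⁻¹) * z⁻¹ = (z * z) * k * (z * z)⁻¹ := by group
          _ = k := by rw [hzz]; simp
      rw [this, one_smul]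
    · intro R _ hR
      change φ • R = R at hR
      obtain ⟨k, hk, hk'⟩ := hcon R
      apply hk'
      have := conjAut_mem_smul K z hz R hk
      rw [← hφ, hR] at this
      exact this
  rw [Set.ncard_univ] at h1
  obtain ⟨R⟩ : Nonempty (Sylow p K) := inferInstance
  have h2 : Nat.card (Sylow p K) ∣ Nat.card K := R.card_dvd_index.trans (Subgroup.index_dvd_card _)
  exact (Nat.not_even_iff_odd.2 (hodd.of_dvd_nat h2)) h1

/-- Frattini argument, elementwise -/
theorem exists_frattini [Finite G] (K : Subgroup G) (z : G)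
    (hz : ∀ k, k ∈ K ↔ z * k * z⁻¹ ∈ K) (p : ℕ) [hp : Fact p.Prime] (R : Sylow p K) :
    ∃ k ∈ K, ∀ y : K, y ∈ R → ∃ y' : K, y' ∈ R ∧ (y' : G) = (k * z) * y * (k * z)⁻¹ := by
  obtain ⟨k, hk⟩ := MulAction.exists_smul_eq K (conjAut K z hz • R) R
  refine ⟨k, k.2, fun y hy => ?_⟩
  have h1 := conjAut_mem_smul K z hz R hy
  have h2 := Subgroup.smul_mem_pointwise_smul (conjAut K z hz y) (MulAut.conj k) _ h1
  refine ⟨MulAut.conj k • conjAut K z hz y, ?_, ?_⟩
  · rw [← hk]
    exact h2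
  · change (k : G) * (z * y * z⁻¹) * (k : G)⁻¹ = _
    group

end Cfsg.Agent.H538.ConjAut
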