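import Cfsg.Agent.H538.ExcTwE6
import Cfsg.Agent.H974.ExcERow
import Cfsg.Agent.UGT.U2.FOne.FFour

/-!
# `F₄(q)`, `q` odd: three commuting groups of fixed points (helper538)
-/

set_option autoImplicit false
set_option linter.unusedSectionVars false
set_option maxHeartbeats 400000
set_option backward.isDefEq.respectTransparency false

namespace Cfsg.Agent.H538.F4S

open CoxeterSystem Cfsg.Agent.ChevalleyStructure.CoxeterGeom Cfsg.Agent.Tits.Roots Cfsg.Agent.Tits.Core
  Cfsg.Agent.Tits Cfsg.Agent.Tits.RootComb Cfsg.Agent.Nodes.Comb Cfsg.Agent.Nodes.Reps Cfsg.Agent.Nodes.Coroot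
  Cfsg.Agent.Nodes.BNOf Cfsg.Agent.Nodes.RGDLib Cfsg.Agent.Nodes.OppDec
  Cfsg.Agent.Nodes.PosPair Cfsg.Agent.KFacts.RgdSL
open Cfsg.Lie Cfsg.Agent.ChevalleyStructure Cfsg.Agent.ChevalleyStructure.CoxeterGeomTypes
  Cfsg.Agent.ChevalleyStructure.Elts
  Cfsg.Agent.Nodes.RGDChev Cfsg.Agent.Nodes.KindF Cfsg.Agent.Nodes.KindChev
open Cfsg.Agent.KFacts.RgdChevCoord (TT XX nc)
open Cfsg.Agent.KFacts.TwESix.Comb (bf rts)
open Cfsg.Agent.UGT.U2.FOne Cfsg.Agent.UGT.U2.FOne.FFour
open Cfsg.Agent.H974.Exc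
open scoped commutatorElement

/-- the coordinates are reversed -/
def rv : (Fin 4 → ℤ) →+ (Fin 4 → ℤ) where
  toFun v := ![v 3, v 2, v 1, v 0]
  map_zero' := by
    funext i; fin_cases i <;> rfl
  map_add' u v := by
    funext i; fin_cases i <;> rfl

/-- the index of a root -/
def ix (r : Fin 4 → ℤ) : ℕ := ((List.range 48).find? fun k => decide (vec chevF4 4 k = rv r)).getD 0

set_option maxRecDepth 20000 in
theorem ix_spec : ∀ r ∈ rts, vec chevF4 4 (ix r) = rv r ∧ ix r < 48 := by decide +kernel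

set_option maxRecDepth 20000 in
theorem qf_spec : ∀ r ∈ rts, ∀ s ∈ rts, qf AF d (rv r) (rv s) = bf r s := by decide +kernel

set_option maxRecDepth 20000 in
theorem tab_comF : ∀ r ∈ rts, ∀ s ∈ rts, bf r r = 4 → bf s s = 4 → bf r s = 0 →
    ix s ≠ ix r ∧ ix s ≠ chevF4.neg (ix r) ∧ chevF4.commTerms (ix r) (ix s) = [] := by decide +kernel

set_option maxRecDepth 20000 in
theorem tab_b2F : ∀ s ∈ rts, ∀ t ∈ rts, bf s s = 2 → bf t t = 2 → bf s t = 0 →
    s + t ∈ rts ∧ ix s ≠ ix t ∧ ix s ≠ chevF4.neg (ix t) ∧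
    (chevF4.commTerms (ix t) (ix s) = [(ix (s + t), 2, 1, 1)] ∨
      chevF4.commTerms (ix t) (ix s) = [(ix (s + t), -2, 1, 1)]) := by decide +kernel

theorem n48 : chevF4.nroots = 48 := by decide +kernel

/-- **`F₄(q)`** -/
theorem f4 (F : Type) [Field F] [Finite F] {p : ℕ} [Fact p.Prime] [CharP F p] (hp2 : p ≠ 2)
    (x : MulAut ↥(Lie.chevF4.group F)) (hxx : ∀ g, x (x g) = g) (hx1 : x ≠ 1) : Com3 p x := by
  have := Fintype.ofFinite F
  have hs : IsSimpleGroup ↥(Lie.chevF4.group F) := (S1054.result _ (by simp)).1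
  obtain ⟨cs, hcs⟩ : ∃ cs, cs = (CoxeterMatrix.F₄).toCoxeterSystem := ⟨_, rfl⟩
  have hW : Finite (CoxeterMatrix.F₄).Group := finite_W isType cs
  have R := rgd (K := F) isType cs p
  have hG := G1_eq_top (K := F) isType cs
  have h2F : (2 : F) ≠ 0 := by
    intro h0
    have h1 : ((2 : ℕ) : F) = 0 := by exact_mod_cast h0
    rw [CharP.cast_eq_zero_iff F p] at h1
    exact hp2 ((Nat.prime_dvd_prime_iff_eq Fact.out Nat.prime_two).1 h1)
  obtain ⟨k, x', φ, σ, J, g, hk, N⟩ := H286.OddNF.exists_nf hp2 R hG x hxx hx1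
  rw [← hk]
  refine Com3.congr ?_ _
  have hJ := J_empty hp2 N (fun j hj r hA hx => N.false_of_natJ hj hA hx)
  have hroot : ∀ r ∈ rts, IsRoot cs isType.isCartan (rv r) := by
    intro r hr
    rw [← (ix_spec r hr).1]
    exact isRoot_vec isType cs (by rw [n48]; exact (ix_spec r hr).2)
  have hlt : ∀ r ∈ rts, ix r < chevF4.nroots := fun r hr => by rw [n48]; exact (ix_spec r hr).2
  have hmem : ∀ r ∈ rts, ∀ {u : ↥(chevF4.group F)}, u ∈ XX chevF4 4 F (rv r) ↔ ∃ t, ex (ix r) t = u := by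
    intro r hr u
    rw [← (ix_spec r hr).1]
    exact mem_XX (hlt r hr)
  have hinv : ∀ (m : ℕ) (a : F), (ex m a)⁻¹ = ex m (-a) := fun m a => by
    rw [inv_eq_iff_mul_eq_one]
    have : ex m a * ex m (-a) = ex m (a + -a) := Subtype.ext (xG_add isType.inList m a (-a))
    rw [this, add_neg_cancel]
    exact Subtype.ext (xG_zero isType.inList m)
  have S : FS cs isType.isCartan (XX chevF4 4 F) x' rv := by
    refine ⟨hroot, fun r hr => map_x hp2 N hJ (hroot r hr), ?_, ?_, ?_, ?_⟩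
    · intro r hr s hs h1 h2
      refine a2_of cs (hroot r hr) (hroot s hs) (n := bf r r) (qf_spec r hr r hr) ?_ ?_
      · rw [qf_spec s hs s hs, h1]
      · rw [qf_spec r hr s hs, h2]; ring
    · intro r hr hr2 y hy
      refine FFour.cpr_of cs (hroot r hr) (n := bf r r) (qf_spec r hr r hr) ?_
      rw [qf_spec y hy r hr, hr2]; ring
    · intro s hs t ht hs2 ht2 hst
      obtain ⟨h1, h2, h3, h4⟩ := tab_b2F s hs t ht hs2 ht2 hst
      have key : ∃ c : F, c ≠ 0 ∧ ∀ a b : F, ⁅(ex (ix s) a), (ex (ix t) b)⁆ = ex (ix (s + t)) (c * b * a) := by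
        rcases h4 with h4 | h4
        · refine ⟨-2, neg_ne_zero.2 h2F, fun a b => ?_⟩
          have h5 := comm_xG isType (K := F) (hlt t ht) (hlt s hs) h2 h3 (-b) (-a)
          have h6 : chevF4.commWord F (ix t) (ix s) (-b) (-a) = [(ix (s + t), -2 * b * a)] := by
            show (chevF4.commTerms (ix t) (ix s)).map _ = _
            rw [h4]
            simp
          rw [h6, wordG_cons, wordG_nil, mul_one] at h5
          rw [← inv_inv (ex (ix s) a), ← inv_inv (ex (ix t) b), hinv (ix s), hinv (ix t)]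
          exact Subtype.ext h5
        · refine ⟨2, h2F, fun a b => ?_⟩
          have h5 := comm_xG isType (K := F) (hlt t ht) (hlt s hs) h2 h3 (-b) (-a)
          have h6 : chevF4.commWord F (ix t) (ix s) (-b) (-a) = [(ix (s + t), 2 * b * a)] := by
            show (chevF4.commTerms (ix t) (ix s)).map _ = _
            rw [h4]
            simp
          rw [h6, wordG_cons, wordG_nil, mul_one] at h5
          rw [← inv_inv (ex (ix s) a), ← inv_inv (ex (ix t) b), hinv (ix s), hinv (ix t)]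
          exact Subtype.ext h5
      obtain ⟨c, hc, key⟩ := key
      constructor
      · intro u hu v hv
        obtain ⟨a, rfl⟩ := (hmem s hs).1 hu
        obtain ⟨b, rfl⟩ := (hmem t ht).1 hv
        rw [key]
        exact (hmem _ h1).2 ⟨_, rfl⟩
      · refine ⟨_, (hmem s hs).2 ⟨1, rfl⟩, _, (hmem t ht).2 ⟨1, rfl⟩, ?_⟩
        rw [key]
        intro h5
        have h6 : ex (ix (s + t)) (c * 1 * 1) = ex (ix (s + t)) 0 := by
          rw [h5]
          exact Subtype.ext (xG_zero isType.inList _).symm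
        have h7 := ex_inj (hlt _ h1) h6
        rw [mul_one, mul_one] at h7
        exact hc h7
    · intro r hr s hs h1 h2 h3
      have key : ∀ r ∈ rts, ∀ s ∈ rts, bf r r = 4 → bf s s = 4 → bf r s = 0 → ∀ u ∈ XX chevF4 4 F (rv r),
          ∀ v ∈ XX chevF4 4 F (rv s), u * v = v * u := by
        intro r hr s hs h1 h2 h3 u hu v hv
        obtain ⟨a, rfl⟩ := (hmem r hr).1 hu
        obtain ⟨b, rfl⟩ := (hmem s hs).1 hv
        obtain ⟨k1, k2, k3⟩ := tab_comF r hr s hs h1 h2 h3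
        exact Subtype.ext (OddHalf.LongSL.Chev.commute_xG isType F (hlt r hr) (hlt s hs) k1 k2 k3 a b).symm
      have hn : ∀ r, bf (-r) (-r) = bf r r := fun r => by
        rw [Cfsg.Agent.KFacts.TwESix.Comb.bf_neg_left, Cfsg.Agent.KFacts.TwESix.Comb.bf_neg_right, neg_neg]
      refine ra_comm_of (key r hr s hs h1 h2 h3) ?_ ?_ ?_
      · rw [← map_neg]
        exact key r hr _ (neg_mem s hs) h1 (by rw [hn, h2])
          (by rw [Cfsg.Agent.KFacts.TwESix.Comb.bf_neg_right, h3, neg_zero])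
      · rw [← map_neg]
        exact key _ (neg_mem r hr) s hs (by rw [hn, h1]) h2
          (by rw [Cfsg.Agent.KFacts.TwESix.Comb.bf_neg_left, h3, neg_zero])
      · rw [← map_neg, ← map_neg]
        exact key _ (neg_mem r hr) _ (neg_mem s hs) (by rw [hn, h1]) (by rw [hn, h2])
          (by rw [Cfsg.Agent.KFacts.TwESix.Comb.bf_neg_left, Cfsg.Agent.KFacts.TwESix.Comb.bf_neg_right, h3,
            neg_zero, neg_zero])
  exact S.com3 R ((Fact.out : p.Prime).odd_of_ne_two hp2) N.xx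

end Cfsg.Agent.H538.F4S
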