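import Cfsg.Agent.H974.ExcComb
import Cfsg.Agent.KFacts.TwESix.Comb

/-!
# Three commuting groups of fixed points, relative type `F₄` (helper538)

An involutory automorphism `x` of a group with a root group datum of type `F₄` and odd characteristic which normalises all
root groups: `FS.com3` gives three pairwise commuting `MM`-subgroups (`Com3`).

Coordinates of the roots: `KFacts.TwESix.Comb.rts` (nodes `0, 1` long, `2, 3` short), `e` maps them to the roots.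
-/

set_option autoImplicit false
set_option linter.unusedSectionVars false
set_option maxHeartbeats 400000

namespace Cfsg.Agent.H538.F4S

open CoxeterSystem Cfsg.Agent.ChevalleyStructure.CoxeterGeom Cfsg.Agent.Tits.Roots Cfsg.Agent.Tits.Core
  Cfsg.Agent.Tits.RootComb Cfsg.Agent.Tits.Exchange Cfsg.Agent.Nodes.Comb Cfsg.Agent.Nodes.Reps
  Cfsg.Agent.Nodes.BNOf Cfsg.Agent.Nodes.RGDLib Cfsg.Agent.Nodes.Bruhat Cfsg.Agent.Nodes.StabComb
  Cfsg.Agent.Nodes.OppDec Cfsg.Agent.Nodes.Coroot Cfsg.Agent.KFacts.RgdSL Cfsg.Agent.UGT.U2.FOne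
open Cfsg.Agent.KFacts.TwESix.Comb (bf rts)
open Cfsg.Agent.H974.Exc
open scoped commutatorElement

variable {I W K : Type*} [Fintype I] [DecidableEq I] [Group W] [Group K] {M : CoxeterMatrix I}
  {cs : CoxeterSystem M W} {A : I → I → ℤ} {h : IsCartan M A} {p : ℕ} {T : Subgroup K} {n : I → K}
  {X : (I → ℤ) → Subgroup K}

/-! ### General rules -/

/-- `x` centralises `X r` -/
def Cent (x : MulAut K) (X : (I → ℤ) → Subgroup K) (r : I → ℤ) : Prop := ∀ u ∈ X r, x u = u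

/-- inverted + inverted = centralised -/
theorem cent_add [Finite W] (R : RGD cs h p T n X) {x : MulAut K} {r s : I → ℤ} (hA : A2 cs h r s)
    (h1 : Inv x X r) (h2 : Inv x X s) : Cent x X (r + s) := by
  obtain ⟨u, hu, hu1⟩ : ∃ u ∈ X r, u ≠ 1 := by
    by_contra hcon
    push Not at hcon
    exact X_ne_bot R hA.rx ((Subgroup.eq_bot_iff_forall _).2 hcon)
  intro w hw
  obtain ⟨v, hv, rfl⟩ := A2.comm_surj R hA hu hu1 hw
  rw [map_commutatorElement, h1 u hu, h2 v hv]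
  exact comm_inv_inv (A2.comm_left R hA hw hu) (A2.comm_right R hA hw hv)

/-- **The fixed `μ(u)`**, with its action on all root groups. -/
theorem exists_fix_mu' [Finite W] (R : RGD cs h p T n X) {x : MulAut K} {r : I → ℤ} (hr : IsRoot cs h r)
    (hxr : (X r).map x.toMonoidHom = X r) (hxr' : (X (-r)).map x.toMonoidHom = X (-r)) {u : K} (hu : u ∈ X r)
    (hu1 : u ≠ 1) (hxu : x u = u) :
    ∃ (s : W) (m : K), (∀ y, rep cs h s y = y - cpr cs h y r • r) ∧ Rp cs R.nsys s m ∧ x m = m := by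
  obtain ⟨s, hs, a, ha, b, hb, m, hm, he⟩ := exists_mu R hr hu hu1
  obtain ⟨h1, h2⟩ := cj_mu R hr hs hm
  have hxa : x a ∈ X (-r) := by rw [← hxr']; exact Subgroup.mem_map_of_mem x.toMonoidHom ha
  have hxb : x b ∈ X (-r) := by rw [← hxr']; exact Subgroup.mem_map_of_mem x.toMonoidHom hb
  have hxm : x m = x a * u * x b := by rw [he, map_mul, map_mul, hxu]
  have h1' : cj (x m) (X r) = X (-r) := by
    have := congrArg (Subgroup.map x.toMonoidHom) h1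
    rwa [map_cj, hxr, hxr'] at this
  have h2' : cj (x m) (X (-r)) = X r := by
    have := congrArg (Subgroup.map x.toMonoidHom) h2
    rwa [map_cj, hxr, hxr'] at this
  have hea : x a = a := by
    have hc : x a * a⁻¹ ∈ X (-r) := mul_mem hxa (inv_mem ha)
    have h3 : x m = (x a * a⁻¹) * m * (b⁻¹ * x b) := by rw [hxm, he]; group
    rw [h3, cj_mul, cj_mul, cj_eq_of_mem (mul_mem (inv_mem hb) hxb), h2] at h2'
    exact mul_inv_eq_one.1 (eq_one_of_normal R hr hc h2')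
  have heb : x b = b := by
    have hc : b⁻¹ * x b ∈ X (-r) := mul_mem (inv_mem hb) hxb
    have h3 : x m = m * (b⁻¹ * x b) := by rw [hxm, hea, he]; group
    rw [h3, cj_mul, ← h1] at h1'
    have h4 := congrArg (cj m⁻¹) h1'
    rw [← cj_mul, ← cj_mul, inv_mul_cancel, one_mul, ← cj_mul, inv_mul_cancel, cj_one] at h4
    exact (inv_mul_eq_one.1 (eq_one_of_normal R hr hc h4)).symm
  exact ⟨s, m, hs, hm, by rw [hxm, hea, heb, ← he]⟩

/-- the reflection in a good root preserves goodness -/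
theorem good_refl [Finite W] (R : RGD cs h p T n X) {x : MulAut K} {r y : I → ℤ} (hr : IsRoot cs h r)
    (hy : IsRoot cs h y) (hxr : (X r).map x.toMonoidHom = X r) (hxr' : (X (-r)).map x.toMonoidHom = X (-r))
    (hg : Good x X r) (hgy : Good x X y) : Good x X (y - cpr cs h y r • r) := by
  obtain ⟨u, hu, hu1, hxu⟩ := hg
  obtain ⟨s, m, hs, hm, hxm⟩ := exists_fix_mu' R hr hxr hxr' hu hu1 hxu
  obtain ⟨v, hv, hv1, hxv⟩ := hgy
  refine ⟨m * v * m⁻¹, ?_, ?_, ?_⟩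
  · rw [← hs]
    exact R.conj_mem hm hy hv
  · intro h1
    apply hv1
    calc v = m⁻¹ * (m * v * m⁻¹) * m := by group
      _ = 1 := by rw [h1]; group
  · rw [map_mul, map_mul, map_inv, hxm, hxv]

/-- two commuting directions: centralised + centralised = good -/
theorem good_of_cent {x : MulAut K} {r s z : I → ℤ} (h1 : Cent x X r) (h2 : Cent x X s)
    (hm : ∀ u ∈ X r, ∀ v ∈ X s, ⁅u, v⁆ ∈ X z) (hn : ∃ u ∈ X r, ∃ v ∈ X s, ⁅u, v⁆ ≠ 1) : Good x X z := by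
  obtain ⟨u, hu, v, hv, hne⟩ := hn
  exact ⟨_, hm u hu v hv, hne, by rw [map_commutatorElement, h1 u hu, h2 v hv]⟩

/-! ### Numbers -/

/-- a sign character of the lattice of the short roots, basis `0001, 0010, 0110, 1110` -/
def chi (v : Fin 4 → Bool) (r : Fin 4 → ℤ) : Bool :=
  !(xor (xor (!v 0 && decide (r 3 % 2 ≠ 0)) (!v 1 && decide ((r 2 - r 1) % 2 ≠ 0)))
    (xor (!v 2 && decide ((r 1 - r 0) % 2 ≠ 0)) (!v 3 && decide (r 0 % 2 ≠ 0))))

/-- the positive short roots -/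
def shorts : List (Fin 4 → ℤ) :=
  [![0, 0, 0, 1], ![0, 0, 1, 0], ![0, 1, 1, 0], ![1, 1, 1, 0], ![0, 0, 1, 1], ![0, 1, 1, 1], ![1, 1, 1, 1],
    ![0, 1, 2, 1], ![1, 1, 2, 1], ![1, 2, 2, 1], ![1, 2, 3, 1], ![1, 2, 3, 2]]

/-- two pairs of orthogonal short roots -/
def cand : List ((Fin 4 → ℤ) × (Fin 4 → ℤ) × (Fin 4 → ℤ) × (Fin 4 → ℤ)) :=
  [(![0, 0, 0, 1], ![0, 1, 2, 1], ![0, 0, 1, 0], ![0, -1, -1, 0]),
    (![0, 0, 0, 1], ![1, 1, 2, 1], ![0, 0, 1, 0], ![-1, -1, -1, 0]),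
    (![0, 0, 0, 1], ![1, 2, 2, 1], ![0, 0, 1, 0], ![1, 2, 3, 2]),
    (![0, 0, 0, 1], ![1, 2, 2, 1], ![0, 1, 1, 0], ![-1, -1, -1, 0]),
    (![0, 0, 0, 1], ![1, 1, 2, 1], ![0, 1, 1, 0], ![1, 2, 3, 2]),
    (![0, 0, 0, 1], ![0, 1, 2, 1], ![1, 1, 1, 0], ![1, 2, 3, 2]),
    (![0, 0, 0, 1], ![0, 1, 2, 1], ![1, 1, 2, 1], ![1, 2, 2, 1]),
    (![0, 0, 1, 0], ![0, 1, 1, 0], ![1, 1, 1, 0], ![1, 2, 3, 2]),
    (![0, 0, 1, 0], ![0, 1, 1, 0], ![1, 1, 1, 1], ![1, 2, 3, 1]),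
    (![0, 0, 1, 0], ![1, 1, 1, 0], ![0, 1, 1, 1], ![1, 2, 3, 1]),
    (![0, 0, 1, 0], ![1, 2, 3, 2], ![0, 1, 1, 1], ![-1, -1, -1, -1]),
    (![0, 0, 1, 1], ![1, 2, 3, 1], ![0, 1, 1, 0], ![-1, -1, -1, 0]),
    (![0, 0, 1, 1], ![1, 1, 1, 1], ![0, 1, 1, 0], ![1, 2, 3, 2]),
    (![0, 0, 1, 1], ![0, 1, 1, 1], ![1, 1, 1, 0], ![1, 2, 3, 2]),
    (![0, 0, 1, 1], ![0, 1, 1, 1], ![1, 1, 1, 1], ![1, 2, 3, 1])]

set_option maxRecDepth 20000 in
theorem neg_mem : ∀ r ∈ rts, -r ∈ rts := by decide +kernel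

set_option maxRecDepth 20000 in
theorem norm_rts : ∀ r ∈ rts, bf r r = 4 ∨ bf r r = 2 := by decide +kernel

set_option maxRecDepth 20000 in
theorem short_cases : ∀ s ∈ rts, bf s s = 2 → s ∈ shorts ∨ -s ∈ shorts := by decide +kernel

set_option maxRecDepth 20000 in
theorem shorts_rts : ∀ s ∈ shorts, s ∈ rts := by decide +kernel

set_option maxRecDepth 20000 in
theorem chi_neg : ∀ v : Fin 4 → Bool, ∀ s ∈ rts, chi v (-s) = chi v s := by decide +kernel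

/-- `s` is the sum of two short roots of sign `-` -/
def CentOK (v : Fin 4 → Bool) (s : Fin 4 → ℤ) : Prop :=
  ∃ r ∈ rts, bf r r = 2 ∧ chi v r = false ∧ s - r ∈ rts ∧ bf (s - r) (s - r) = 2 ∧ chi v (s - r) = false ∧
    bf r (s - r) = -1

instance (v : Fin 4 → Bool) (s : Fin 4 → ℤ) : Decidable (CentOK v s) := by
  unfold CentOK; infer_instance

set_option maxRecDepth 20000 in
theorem comb : ∀ v : Fin 4 → Bool, (∃ i, v i = false) → ∃ q ∈ cand, CentOK v q.1 ∧ CentOK v q.2.1 ∧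
    CentOK v (-q.2.1) ∧ CentOK v q.2.2.1 ∧ CentOK v q.2.2.2 := by decide +kernel

set_option maxRecDepth 20000 in
theorem cand_spec : ∀ q ∈ cand, (q.1 ∈ rts ∧ q.2.1 ∈ rts ∧ q.2.2.1 ∈ rts ∧ q.2.2.2 ∈ rts) ∧
    (bf q.1 q.1 = 2 ∧ bf q.2.1 q.2.1 = 2 ∧ bf q.2.2.1 q.2.2.1 = 2 ∧ bf q.2.2.2 q.2.2.2 = 2) ∧
    (bf q.1 q.2.1 = 0 ∧ bf q.2.2.1 q.2.2.2 = 0) ∧
    (q.1 + q.2.1 ∈ rts ∧ q.1 + -q.2.1 ∈ rts ∧ q.2.2.1 + q.2.2.2 ∈ rts) ∧
    (bf (q.1 + q.2.1) (q.1 + q.2.1) = 4 ∧ bf (q.1 + -q.2.1) (q.1 + -q.2.1) = 4 ∧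
      bf (q.2.2.1 + q.2.2.2) (q.2.2.1 + q.2.2.2) = 4) ∧
    (bf (q.1 + q.2.1) (q.1 + -q.2.1) = 0 ∧ bf (q.1 + q.2.1) (q.2.2.1 + q.2.2.2) = 0 ∧
      bf (q.1 + -q.2.1) (q.2.2.1 + q.2.2.2) = 0) := by decide +kernel

/-! ### The system -/

/-- `x` normalises the root groups of a system of type `F₄`. -/
structure FS (cs : CoxeterSystem M W) {A : I → I → ℤ} (h : IsCartan M A) (X : (I → ℤ) → Subgroup K) (x : MulAut K)
    (e : (Fin 4 → ℤ) →+ (I → ℤ)) : Prop where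
  root : ∀ r ∈ rts, IsRoot cs h (e r)
  fix : ∀ r ∈ rts, (X (e r)).map x.toMonoidHom = X (e r)
  a2 : ∀ r ∈ rts, ∀ s ∈ rts, bf r r = bf s s → 2 * bf r s = -bf r r → A2 cs h (e r) (e s)
  cpr : ∀ r ∈ rts, bf r r = 2 → ∀ y ∈ rts, cpr cs h (e y) (e r) = bf y r
  b2 : ∀ s ∈ rts, ∀ t ∈ rts, bf s s = 2 → bf t t = 2 → bf s t = 0 →
    (∀ u ∈ X (e s), ∀ v ∈ X (e t), ⁅u, v⁆ ∈ X (e (s + t))) ∧ ∃ u ∈ X (e s), ∃ v ∈ X (e t), ⁅u, v⁆ ≠ 1
  com : ∀ r ∈ rts, ∀ s ∈ rts, bf r r = 4 → bf s s = 4 → bf r s = 0 →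
    ∀ a ∈ RA X (e r), ∀ b ∈ RA X (e s), a * b = b * a

namespace FS

variable {x : MulAut K} {e : (Fin 4 → ℤ) →+ (I → ℤ)} [Finite W] [Finite K]

section

variable (S : FS cs h X x e) (R : RGD cs h p T n X)

include S R

theorem good_neg_iff {r : Fin 4 → ℤ} (hr : r ∈ rts) : Good x X (e (-r)) ↔ Good x X (e r) := by
  have h1 := S.root r hr
  have h2 := S.fix r hr
  have h3 := S.fix (-r) (neg_mem r hr)
  rw [map_neg] at h3 ⊢
  constructor
  · intro h4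
    have := good_neg R h1.neg h3 (by rw [neg_neg]; exact h2) h4
    rwa [neg_neg] at this
  · exact good_neg R h1 h2 h3

theorem good_add' (hp2 : Odd p) (hxx : ∀ g, x (x g) = g) {r s : Fin 4 → ℤ} (hr : r ∈ rts) (hs : s ∈ rts)
    (h1 : bf r r = bf s s) (h2 : 2 * bf r s = -bf r r) :
    Good x X (e (r + s)) ↔ (Good x X (e r) ↔ Good x X (e s)) := by
  rw [map_add]
  exact good_add_iff R hp2 hxx (S.a2 r hr s hs h1 h2) (S.fix r hr) (S.fix s hs)

theorem refl {r y z : Fin 4 → ℤ} (hr : r ∈ rts) (hr2 : bf r r = 2) (hy : y ∈ rts) (hz : y - bf y r • r = z)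
    (h1 : Good x X (e r)) (h2 : Good x X (e y)) : Good x X (e z) := by
  have h3 := S.fix (-r) (neg_mem r hr)
  rw [map_neg] at h3
  have h4 := good_refl R (S.root r hr) (S.root y hy) (S.fix r hr) h3 h1 h2
  rw [S.cpr r hr hr2 y hy, ← map_zsmul, ← map_sub, hz] at h4
  exact h4

theorem three {a b c : Fin 4 → ℤ} (ha : a ∈ rts) (hb : b ∈ rts) (hc : c ∈ rts) (la : bf a a = 4) (lb : bf b b = 4)
    (lc : bf c c = 4) (hab : bf a b = 0) (hac : bf a c = 0) (hbc : bf b c = 0) (ga : Good x X (e a))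
    (gb : Good x X (e b)) (gc : Good x X (e c)) : Com3 p x := by
  have hn : ∀ r ∈ rts, (X (-e r)).map x.toMonoidHom = X (-e r) := by
    intro r hr
    have h3 := S.fix (-r) (neg_mem r hr)
    rwa [map_neg] at h3
  obtain ⟨N₁, l1, m1⟩ := exists_mm R (S.root a ha) (S.fix a ha) (hn a ha) ga
  obtain ⟨N₂, l2, m2⟩ := exists_mm R (S.root b hb) (S.fix b hb) (hn b hb) gb
  obtain ⟨N₃, l3, m3⟩ := exists_mm R (S.root c hc) (S.fix c hc) (hn c hc) gc
  exact ⟨N₁, N₂, N₃, m1, m2, m3, fun u hu v hv => S.com a ha b hb la lb hab u (l1 hu) v (l2 hv),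
    fun u hu v hv => S.com a ha c hc la lc hac u (l1 hu) v (l3 hv),
    fun u hu v hv => S.com b hb c hc lb lc hbc u (l2 hu) v (l3 hv)⟩

/-- all short roots good -/
theorem case_all (hp2 : Odd p) (hxx : ∀ g, x (x g) = g) (g0 : Good x X (e ![0, 0, 0, 1]))
    (g1 : Good x X (e ![0, 0, 1, 0])) (g2 : Good x X (e ![0, 1, 1, 0])) : Com3 p x := by
  have key : ∀ r₁ ∈ [(![0, 0, 1, 0] : Fin 4 → ℤ), ![0, 1, 1, 0]], ∀ a b c : Fin 4 → ℤ,
      (a ∈ rts ∧ b ∈ rts ∧ c ∈ rts) ∧ (bf a a = 4 ∧ bf b b = 4 ∧ bf c c = 4) ∧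
      (bf a b = 0 ∧ bf a c = 0 ∧ bf b c = 0) ∧ (a - bf a r₁ • r₁ = b ∧
        b - bf b ![0, 0, 0, 1] • ![0, 0, 0, 1] = c) → Good x X (e a) → Com3 p x := by
    rintro r₁ hr₁ a b c ⟨⟨ha, hb, hc⟩, ⟨la, lb, lc⟩, ⟨hab, hac, hbc⟩, h1, h2⟩ ga
    have k1 : ∀ r ∈ [(![0, 0, 1, 0] : Fin 4 → ℤ), ![0, 1, 1, 0]], r ∈ rts ∧ bf r r = 2 := by decide +kernel
    have k2 : Good x X (e r₁) := by
      simp only [List.mem_cons, List.not_mem_nil, or_false] at hr₁
      rcases hr₁ with rfl | rfl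
      · exact g1
      · exact g2
    have gb := S.refl R (k1 r₁ hr₁).1 (k1 r₁ hr₁).2 ha h1 k2 ga
    have gc := S.refl R (r := ![0, 0, 0, 1]) (by decide +kernel) (by decide +kernel) hb h2 g0 gb
    exact S.three R ha hb hc la lb lc hab hac hbc ga gb gc
  by_cases h1 : Good x X (e ![1, 0, 0, 0])
  · exact key ![0, 1, 1, 0] (by decide +kernel) _ ![1, 2, 2, 0] ![1, 2, 2, 2] (by decide +kernel) h1
  by_cases h2 : Good x X (e ![0, 1, 0, 0])
  · exact key ![0, 0, 1, 0] (by decide +kernel) _ ![0, 1, 2, 0] ![0, 1, 2, 2] (by decide +kernel) h2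
  · have h3 : Good x X (e (![1, 0, 0, 0] + ![0, 1, 0, 0])) :=
      (S.good_add' R hp2 hxx (by decide +kernel) (by decide +kernel) (by decide +kernel) (by decide +kernel)).2
        ⟨fun h => absurd h h1, fun h => absurd h h2⟩
    exact key ![0, 0, 1, 0] (by decide +kernel) _ ![1, 1, 2, 0] ![1, 1, 2, 2] (by decide +kernel) h3

/-- the sign character -/
theorem chi_spec (hp2 : Odd p) (hxx : ∀ g, x (x g) = g) {v : Fin 4 → Bool}
    (h0 : v 0 = true ↔ Good x X (e ![0, 0, 0, 1])) (h1 : v 1 = true ↔ Good x X (e ![0, 0, 1, 0]))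
    (h2 : v 2 = true ↔ Good x X (e ![0, 1, 1, 0])) (h3 : v 3 = true ↔ Good x X (e ![1, 1, 1, 0]))
    {s : Fin 4 → ℤ} (hs : s ∈ rts) (hs2 : bf s s = 2) : Good x X (e s) ↔ chi v s = true := by
  have step : ∀ {r s t : Fin 4 → ℤ}, r + s = t → r ∈ rts → s ∈ rts → bf r r = bf s s → 2 * bf r s = -bf r r →
      (∀ v : Fin 4 → Bool, chi v t = (chi v r == chi v s)) → (Good x X (e r) ↔ chi v r = true) →
      (Good x X (e s) ↔ chi v s = true) → (Good x X (e t) ↔ chi v t = true) := by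
    rintro r s _ rfl hr hs h1 h2 h3 h4 h5
    rw [S.good_add' R hp2 hxx hr hs h1 h2, h4, h5, h3 v]
    cases chi v r <;> cases chi v s <;> simp
  have b0 : ∀ v : Fin 4 → Bool, chi v ![0, 0, 0, 1] = v 0 := by decide +kernel
  have b1 : ∀ v : Fin 4 → Bool, chi v ![0, 0, 1, 0] = v 1 := by decide +kernel
  have b2 : ∀ v : Fin 4 → Bool, chi v ![0, 1, 1, 0] = v 2 := by decide +kernel
  have b3 : ∀ v : Fin 4 → Bool, chi v ![1, 1, 1, 0] = v 3 := by decide +kernel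
  have c0 : Good x X (e ![0, 0, 0, 1]) ↔ chi v ![0, 0, 0, 1] = true := by rw [b0, h0]
  have c1 : Good x X (e ![0, 0, 1, 0]) ↔ chi v ![0, 0, 1, 0] = true := by rw [b1, h1]
  have c2 : Good x X (e ![0, 1, 1, 0]) ↔ chi v ![0, 1, 1, 0] = true := by rw [b2, h2]
  have c3 : Good x X (e ![1, 1, 1, 0]) ↔ chi v ![1, 1, 1, 0] = true := by rw [b3, h3]
  have c4 : Good x X (e ![0, 0, 1, 1]) ↔ chi v ![0, 0, 1, 1] = true :=
    step (r := ![0, 0, 0, 1]) (s := ![0, 0, 1, 0]) (by decide +kernel) (by decide +kernel) (by decide +kernel) (by decide +kernel)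
      (by decide +kernel) (by decide +kernel) c0 c1
  have c5 : Good x X (e ![0, 1, 1, 1]) ↔ chi v ![0, 1, 1, 1] = true :=
    step (r := ![0, 0, 0, 1]) (s := ![0, 1, 1, 0]) (by decide +kernel) (by decide +kernel) (by decide +kernel) (by decide +kernel)
      (by decide +kernel) (by decide +kernel) c0 c2
  have c6 : Good x X (e ![1, 1, 1, 1]) ↔ chi v ![1, 1, 1, 1] = true :=
    step (r := ![0, 0, 0, 1]) (s := ![1, 1, 1, 0]) (by decide +kernel) (by decide +kernel) (by decide +kernel) (by decide +kernel)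
      (by decide +kernel) (by decide +kernel) c0 c3
  have c7 : Good x X (e ![0, 1, 2, 1]) ↔ chi v ![0, 1, 2, 1] = true :=
    step (r := ![0, 0, 1, 1]) (s := ![0, 1, 1, 0]) (by decide +kernel) (by decide +kernel) (by decide +kernel) (by decide +kernel)
      (by decide +kernel) (by decide +kernel) c4 c2
  have c8 : Good x X (e ![1, 1, 2, 1]) ↔ chi v ![1, 1, 2, 1] = true :=
    step (r := ![0, 0, 1, 1]) (s := ![1, 1, 1, 0]) (by decide +kernel) (by decide +kernel) (by decide +kernel) (by decide +kernel)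
      (by decide +kernel) (by decide +kernel) c4 c3
  have c9 : Good x X (e ![1, 2, 2, 1]) ↔ chi v ![1, 2, 2, 1] = true :=
    step (r := ![0, 1, 1, 1]) (s := ![1, 1, 1, 0]) (by decide +kernel) (by decide +kernel) (by decide +kernel) (by decide +kernel)
      (by decide +kernel) (by decide +kernel) c5 c3
  have c10 : Good x X (e ![1, 2, 3, 1]) ↔ chi v ![1, 2, 3, 1] = true :=
    step (r := ![0, 1, 2, 1]) (s := ![1, 1, 1, 0]) (by decide +kernel) (by decide +kernel) (by decide +kernel) (by decide +kernel)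
      (by decide +kernel) (by decide +kernel) c7 c3
  have c11 : Good x X (e ![1, 2, 3, 2]) ↔ chi v ![1, 2, 3, 2] = true :=
    step (r := ![1, 2, 3, 1]) (s := ![0, 0, 0, 1]) (by decide +kernel) (by decide +kernel) (by decide +kernel) (by decide +kernel)
      (by decide +kernel) (by decide +kernel) c10 c0
  have key : ∀ s ∈ shorts, (Good x X (e s) ↔ chi v s = true) := by
    intro s hs
    simp only [shorts, List.mem_cons, List.not_mem_nil, or_false] at hs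
    rcases hs with rfl | rfl | rfl | rfl | rfl | rfl | rfl | rfl | rfl | rfl | rfl | rfl <;> assumption
  rcases short_cases s hs hs2 with h4 | h4
  · exact key s h4
  · rw [← S.good_neg_iff R hs, key _ h4, chi_neg v s hs]

/-- a good short root is centralised if there is a decomposition into inverted short roots -/
theorem cent_of (hxx : ∀ g, x (x g) = g) {v : Fin 4 → Bool}
    (hv : ∀ s ∈ rts, bf s s = 2 → (Good x X (e s) ↔ chi v s = true)) {s : Fin 4 → ℤ} (hs : CentOK v s) :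
    Cent x X (e s) := by
  obtain ⟨r, hr, hr2, h1, h2, h3, h4, h5⟩ := hs
  have h6 : Inv x X (e r) := inv_of_not_good hxx (S.fix r hr) (by rw [hv r hr hr2, h1]; decide)
  have h7 : Inv x X (e (s - r)) := inv_of_not_good hxx (S.fix _ h2) (by rw [hv _ h2 h3, h4]; decide)
  have h8 := cent_add R (S.a2 r hr _ h2 (by rw [hr2, h3]) (by rw [h5, hr2]; rfl)) h6 h7
  rwa [← map_add, add_sub_cancel] at h8

/-- **Three commuting groups of fixed points.** -/
theorem com3 (hp2 : Odd p) (hxx : ∀ g, x (x g) = g) : Com3 p x := by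
  classical
  obtain ⟨v, hv⟩ : ∃ v : Fin 4 → Bool, v = ![decide (Good x X (e ![0, 0, 0, 1])), decide (Good x X (e ![0, 0, 1, 0])),
    decide (Good x X (e ![0, 1, 1, 0])), decide (Good x X (e ![1, 1, 1, 0]))] := ⟨_, rfl⟩
  have h0 : v 0 = true ↔ Good x X (e ![0, 0, 0, 1]) := by rw [hv]; simp
  have h1 : v 1 = true ↔ Good x X (e ![0, 0, 1, 0]) := by rw [hv]; simp
  have h2 : v 2 = true ↔ Good x X (e ![0, 1, 1, 0]) := by rw [hv]; simp
  have h3 : v 3 = true ↔ Good x X (e ![1, 1, 1, 0]) := by rw [hv]; simp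
  clear hv
  by_cases hall : ∀ i, v i = true
  · exact S.case_all R hp2 hxx (h0.1 (hall 0)) (h1.1 (hall 1)) (h2.1 (hall 2))
  · push Not at hall
    obtain ⟨i, hi⟩ := hall
    obtain ⟨q, hq, k1, k2, k2', k3, k4⟩ := comb v ⟨i, by simpa using hi⟩
    have hc : ∀ s ∈ rts, bf s s = 2 → (Good x X (e s) ↔ chi v s = true) := fun s hs hs2 =>
      S.chi_spec R hp2 hxx h0 h1 h2 h3 hs hs2
    obtain ⟨⟨m1, m2, m3, m4⟩, ⟨n1, n2, n3, n4⟩, ⟨o1, o2⟩, ⟨s1, s2, s3⟩, ⟨l1, l2, l3⟩, t1, t2, t3⟩ := cand_spec q hq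
    have c1 := S.cent_of R hxx hc k1
    have c2 := S.cent_of R hxx hc k2
    have c2' := S.cent_of R hxx hc k2'
    have c3 := S.cent_of R hxx hc k3
    have c4 := S.cent_of R hxx hc k4
    have m2' := neg_mem _ m2
    have n2' : bf (-q.2.1) (-q.2.1) = 2 := by
      rw [Cfsg.Agent.KFacts.TwESix.Comb.bf_neg_left, Cfsg.Agent.KFacts.TwESix.Comb.bf_neg_right, neg_neg, n2]
    have o1' : bf q.1 (-q.2.1) = 0 := by rw [Cfsg.Agent.KFacts.TwESix.Comb.bf_neg_right, o1, neg_zero]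
    have g1 : Good x X (e (q.1 + q.2.1)) :=
      good_of_cent c1 c2 (S.b2 _ m1 _ m2 n1 n2 o1).1 (S.b2 _ m1 _ m2 n1 n2 o1).2
    have g2 : Good x X (e (q.1 + -q.2.1)) :=
      good_of_cent c1 c2' (S.b2 _ m1 _ m2' n1 n2' o1').1 (S.b2 _ m1 _ m2' n1 n2' o1').2
    have g3 : Good x X (e (q.2.2.1 + q.2.2.2)) :=
      good_of_cent c3 c4 (S.b2 _ m3 _ m4 n3 n4 o2).1 (S.b2 _ m3 _ m4 n3 n4 o2).2
    exact S.three R s1 s2 s3 l1 l2 l3 t1 t2 t3 g1 g2 g3

end

end FS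

end Cfsg.Agent.H538.F4S
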