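import Mathlib
import Cfsg.Agent.H952.On.Table
import Cfsg.Agent.H709.GmnPSUNot
import Cfsg.Agent.H538.GlCyc

/-!
# S3855, rows `PSU_n(q)`, `p` dividing neither `q` nor `q + 1` (helper538, task ON-PSU-b)

`e` the order of `-q` modulo `p`. If `e` is even all elements of order `p` are real; if `e` is odd and `n < 2 e` the
Sylow `p`-subgroups are cyclic.
-/

set_option autoImplicit false

namespace Cfsg.Agent.H538.OnPSUb

open Cfsg Cfsg.Agent.H467.OddNorm
open Cfsg.Agent.LieClassical.SUBasic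
open Cfsg.Agent.ClassicalGeometry.PSUAutCount Cfsg.Agent.ClassicalGeometry.UnitAutBasic

/-- iterated power fusion: `c g c⁻¹ = g ^ a` (`a` an integer) with `a ^ k = -1` modulo the order of `g` -/
theorem inv_of_pow {G : Type*} [Group G] {p : ℕ} {g c : G} {a : ℤ} (hg : g ^ p = 1)
    (hc : c * g * c⁻¹ = g ^ a) {k : ℕ} (hk : ((a : ℤ) : ZMod p) ^ k = -1) :
    c ^ k * g * (c ^ k)⁻¹ = g⁻¹ := by
  have h1 : ∀ j : ℕ, c ^ j * g * (c ^ j)⁻¹ = g ^ (a ^ j) := by
    intro j
    induction j with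
    | zero => simp
    | succ j ih =>
      have h2 : c ^ (j + 1) * g * (c ^ (j + 1))⁻¹ = c * (c ^ j * g * (c ^ j)⁻¹) * c⁻¹ := by
        rw [pow_succ']; group
      rw [h2, ih, ← conj_zpow, hc, ← zpow_mul, pow_succ']
  rw [h1, ← zpow_neg_one]
  have h3 : ((a ^ k : ℤ) : ZMod p) = ((-1 : ℤ) : ZMod p) := by
    push_cast
    exact hk
  rw [ZMod.intCast_eq_intCast_iff] at h3
  have h4 : (orderOf g : ℤ) ∣ (p : ℤ) := Int.natCast_dvd_natCast.2 (orderOf_dvd_of_pow_eq_one hg)
  rw [zpow_eq_zpow_iff_modEq]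
  exact h3.of_dvd h4

theorem half_pow {p : ℕ} [Fact p.Prime] {x : ZMod p} (hx : x ≠ 0) (he : Even (orderOf x)) :
    ∃ k : ℕ, x ^ k = -1 := by
  have hpos : 0 < orderOf x := orderOf_pos_iff.2 (isOfFinOrder_iff_pow_eq_one.2
    ⟨p - 1, by have := (Fact.out : p.Prime).two_le; omega, ZMod.pow_card_sub_one_eq_one hx⟩)
  obtain ⟨k, hk⟩ := he
  refine ⟨k, ?_⟩
  have h1 : (x ^ k) ^ 2 = 1 := by
    rw [← pow_mul, show k * 2 = orderOf x by omega, pow_orderOf_eq_one]
  rcases (show x ^ k = 1 ∨ x ^ k = -1 from by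
    rw [← sub_eq_zero, ← sub_eq_zero (b := (-1 : ZMod p)), ← mul_eq_zero]; linear_combination h1) with h2 | h2
  · exfalso
    have := Nat.le_of_dvd (by omega) (orderOf_dvd_of_pow_eq_one h2)
    omega
  · exact h2

/-- **S3855, row ON-PSU-b.** -/
theorem psu_b {K : Type} [Field K] [Fintype K] {q n p : ℕ} [hp : Fact p.Prime] (hK : Fintype.card K = q ^ 2)
    (hn : 3 ≤ n) (h32 : ¬ (n = 3 ∧ q = 2)) (hp2 : p ≠ 2) (hpq : ¬ p ∣ q) (hpq1 : ¬ p ∣ q + 1)
    (he : Even (orderOf (-(q : ZMod p))) ∨ n < 2 * orderOf (-(q : ZMod p))) (hd : p ∣ Nat.card (PSU n K q)) :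
    Row p (PSU n K q) := by
  have hfin : Finite (GU n K q) := LieClassical.GUOrder.finite_GU n
  have hfinS : Finite (SU n K q) := inferInstance
  have hfinP : Finite (PSU n K q) := Finite.of_surjective _ (pr_surjective (n := n) (F := K) (q := q))
  have hq0 : -(q : ZMod p) ≠ 0 := by
    rw [neg_ne_zero]
    intro h
    exact hpq ((ZMod.natCast_eq_zero_iff q p).1 h)
  by_cases hev : Even (orderOf (-(q : ZMod p)))
  · apply Row.ev
    obtain ⟨k, hk⟩ := half_pow hq0 hev
    have hperf : commutator (PSU n K q) = ⊤ := by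
      have h3 := Cfsg.Agent.LieClassical.HermPerfect.commutator_SU_eq_top hK hn h32
      have h4 : (commutator (SU n K q)).map (pr n K q) = commutator (PSU n K q) := by
        rw [commutator_def, commutator_def, Subgroup.map_commutator, ← MonoidHom.range_eq_map,
          MonoidHom.range_eq_top.2 pr_surjective]
      rw [← h4, h3, ← MonoidHom.range_eq_map, MonoidHom.range_eq_top.2 pr_surjective]
    have hsimple : IsSimpleGroup (PSU n K q) := Cfsg.Agent.S0283.result hK n hn h32
    have hZ := H183.OutPSU.center_eq_bot_of_perfect hperf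
    refine Ev.of_real hp2 hZ hd fun z hz _ => ?_
    have hcard : Nat.card (Subgroup.center (SU n K q)) = Nat.gcd n (q + 1) := Cfsg.Agent.S0279.result hK n hn
    obtain ⟨g, hg1, hg2⟩ := H709.GmnPSUNot.exists_lift hp.out (Subgroup.center (SU n K q)) (by
      rw [hcard]
      intro h
      exact hpq1 (h.trans (Nat.gcd_dvd_right _ _))) inferInstance z (by rw [← hz, pow_orderOf_eq_one])
    have h1 := H709.GmnPSUNot.su_conj hK g hp.out hpq hg2
    obtain ⟨c, hc⟩ := isConj_iff.1 h1.symm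
    have h3 : c * g * c⁻¹ = g ^ (-(q : ℤ)) := by
      rw [zpow_neg, zpow_natCast, ← hc]
      group
    have h4 := inv_of_pow (k := k) hg2 h3 (by push_cast; exact hk)
    refine ⟨QuotientGroup.mk (c ^ k), ?_⟩
    rw [← hg1, ← QuotientGroup.mk_inv, ← QuotientGroup.mk_inv, ← QuotientGroup.mk_mul, ← QuotientGroup.mk_mul, h4]
  · apply Row.cyclic
    have hlt := he.resolve_left hev
    have hpK : (p : K) ≠ 0 := by
      intro h
      have h1 := H952.On.charP_of h
      have h2 := FiniteField.cast_card_eq_zero K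
      rw [CharP.cast_eq_zero_iff K p, hK] at h2
      exact hpq (hp.out.dvd_of_dvd_pow h2)
    have hord : orderOf ((Nat.card K : ℕ) : ZMod p) = orderOf (-(q : ZMod p)) := by
      have h1 : ((Nat.card K : ℕ) : ZMod p) = (-(q : ZMod p)) ^ 2 := by
        rw [Nat.card_eq_fintype_card, hK]
        push_cast
        ring
      rw [h1]
      exact Nat.Coprime.orderOf_pow (Nat.coprime_two_right.2 (Nat.not_even_iff_odd.1 hev))
    refine H952.Rc.isCyclic_sylow_of_surjective (pr n K q) pr_surjective fun P => ?_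
    refine GlCyc.isCyclic_of_hom hpK (by rwa [hord]) P.isPGroup'
      ((Matrix.SpecialLinearGroup.toGL.comp (SU n K q).subtype).comp (P : Subgroup (SU n K q)).subtype) ?_
    intro x y hxy
    exact Subtype.ext (Subtype.ext (Matrix.SpecialLinearGroup.toGL_injective hxy))

end Cfsg.Agent.H538.OnPSUb
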