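import Cfsg.Agent.H538.StarDefs

/-!
# Counting in the module situation (helper538)
-/

set_option autoImplicit false

namespace Cfsg.Agent.H538.SM

open Cfsg.Agent.H538.RealBasics Cfsg.Agent.H538.RealGraph

variable {G W : Type*} [Group G] [AddCommGroup W] [DistribMulAction G W]

theorem card_ne {α : Type*} [Finite α] (a : α) : Nat.card {x : α // x ≠ a} = Nat.card α - 1 := by
  classical
  have := Fintype.ofFinite α
  rw [Nat.card_eq_fintype_card, Nat.card_eq_fintype_card]
  have := Fintype.card_subtype_compl (fun x : α => x = a)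
  rw [Fintype.card_subtype_eq] at this
  exact this

/-- subgroups of `W` have 2-power order -/
theorem card_pow_two [Finite W] (h : ∀ w : W, w + w = 0) (U : AddSubgroup W) :
    ∃ k : ℕ, Nat.card U = 2 ^ k := by
  have h1 : IsPGroup 2 (Multiplicative U) := by
    intro u
    refine ⟨1, ?_⟩
    rw [pow_one, pow_two]
    have : Multiplicative.toAdd u + Multiplicative.toAdd u = 0 := Subtype.ext (h _)
    exact congrArg Multiplicative.ofAdd this
  have h2 := IsPGroup.iff_card.1 h1
  exact h2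

/-- the subgroup of vectors fixed by `z` -/
def fx (W : Type*) [AddCommGroup W] [DistribMulAction G W] (z : G) : AddSubgroup W where
  carrier := {w | z • w = w}
  zero_mem' := smul_zero z
  add_mem' := fun {a b} ha hb => by
    change z • (a + b) = a + b
    rw [smul_add, ha, hb]
  neg_mem' := fun {a} ha => by
    change z • (-a) = -a
    rw [smul_neg, ha]

theorem mem_fx {z : G} {w : W} : w ∈ fx W z ↔ z • w = w := Iff.rfl

theorem SMod.neg_eq (h : SMod G W) (w : W) : -w = w := by
  rw [neg_eq_iff_add_eq_zero]; exact h.two w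

theorem pow_smul_eq {x : G} {w : W} (h : x • w = w) (n : ℕ) : x ^ n • w = w := by
  induction n with
  | zero => simp
  | succ n ih => rw [pow_succ, mul_smul, h, ih]

theorem smul_eq_of_sq_smul [Finite G] {x : G} (ho : Odd (orderOf x)) {w : W}
    (h : x • x • w = w) : x • w = w := by
  obtain ⟨k, hk⟩ := ho
  have h1 : (x * x) ^ (k + 1) = x := by
    rw [← pow_two, ← pow_mul]
    have : 2 * (k + 1) = orderOf x + 1 := by omega
    rw [this, pow_succ, pow_orderOf_eq_one, one_mul]
  have h2 := pow_smul_eq (x := x * x) (w := w) (by rw [mul_smul]; exact h) (k + 1)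
  rwa [h1] at h2

/-- F5 -/
theorem SMod.card_fx_sq [Finite G] [Finite W] (h : SMod G W) {z : G} (hz : orderOf z = 2) :
    Nat.card (fx W z) ^ 2 = Nat.card W := by
  have hzz : z * z = 1 := by
    have := pow_orderOf_eq_one z
    rwa [hz, pow_two] at this
  apply le_antisymm
  · obtain ⟨x, hx, hp, ho⟩ := h.exists_inverted hz
    have hinj : Function.Injective (fun p : fx W z × fx W z => (p.1 : W) + x • (p.2 : W)) := by
      rintro ⟨⟨a, ha⟩, ⟨b, hb⟩⟩ ⟨⟨a', ha'⟩, ⟨b', hb'⟩⟩ hab
      change a + x • b = a' + x • b' at hab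
      have h1 : a - a' = x • (b' - b) := by
        rw [smul_sub, sub_eq_sub_iff_add_eq_add, hab, add_comm]
      have h2 : z • (b' - b) = b' - b := (fx W z).sub_mem hb' hb
      have h3 : z • x • (b' - b) = x • (b' - b) := by
        rw [← h1]; exact (fx W z).sub_mem ha ha'
      have h4 : x⁻¹ • (b' - b) = x • (b' - b) := by
        calc x⁻¹ • (b' - b) = (z * x * z⁻¹) • (b' - b) := by rw [hx]
          _ = z • x • z⁻¹ • (b' - b) := by rw [mul_smul, mul_smul]
          _ = z • x • (b' - b) := by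
            congr 2
            rw [inv_smul_eq_iff, h2]
          _ = _ := h3
      have h5 : x • x • (b' - b) = b' - b := by
        rw [← h4, smul_inv_smul]
      have h6 := h.real_no_fix hx hp ho (smul_eq_of_sq_smul ho h5)
      rw [h6, smul_zero] at h1
      have h7 := sub_eq_zero.1 h1
      have h8 := sub_eq_zero.1 h6
      subst h7; subst h8; rfl
    have := Nat.card_le_card_of_injective _ hinj
    rwa [Nat.card_prod, ← pow_two] at this
  · let φ : W →+ W :=
      { toFun := fun w => z • w + w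
        map_zero' := by simp
        map_add' := fun a b => by rw [smul_add]; abel }
    have hφ : ∀ w, φ w = z • w + w := fun _ => rfl
    have hker : φ.ker = fx W z := by
      ext w
      rw [AddMonoidHom.mem_ker, mem_fx, hφ, add_eq_zero_iff_eq_neg, h.neg_eq]
    have hran : φ.range ≤ fx W z := by
      rintro _ ⟨w, rfl⟩
      rw [mem_fx, hφ, smul_add, smul_smul, hzz, one_smul, add_comm]
    have h1 := φ.ker.card_mul_index
    rw [AddSubgroup.index_ker, hker] at h1
    have h2 : Nat.card φ.range ≤ Nat.card (fx W z) :=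
      Nat.card_le_card_of_injective (AddSubgroup.inclusion hran)
        (AddSubgroup.inclusion_injective hran)
    rw [← h1, pow_two]
    exact Nat.mul_le_mul_left _ h2

theorem card_V_eq (P Q : Sylow 2 G) [Finite (Sylow 2 G)] :
    Nat.card (V W (P : Subgroup G)) = Nat.card (V W (Q : Subgroup G)) := by
  obtain ⟨g, rfl⟩ := MulAction.exists_smul_eq G P Q
  refine Nat.card_congr ⟨fun v => ⟨g • (v : W), smul_mem_V v.2 g⟩, fun v => ⟨g⁻¹ • (v : W), ?_⟩,
    fun v => ?_, fun v => ?_⟩
  · have := smul_mem_V v.2 g⁻¹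
    rwa [inv_smul_smul] at this
  · exact Subtype.ext (inv_smul_smul g _)
  · exact Subtype.ext (smul_inv_smul g _)

/-- the sets `V P` minus zero partition `W` minus zero; the same inside an additive subgroup `U`
which is a union of them -/
theorem SMod.card_union [Finite G] [Finite W] (h : SMod G W) (P : Sylow 2 G) (U : AddSubgroup W)
    (T : Set (Sylow 2 G)) (hU : ∀ Q ∈ T, V W (Q : Subgroup G) ≤ U)
    (hT : ∀ Q : Sylow 2 G, ∀ w ∈ U, w ≠ 0 → w ∈ V W (Q : Subgroup G) → Q ∈ T) :
    Nat.card U - 1 = Nat.card T * (Nat.card (V W (P : Subgroup G)) - 1) := by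
  classical
  have := Fintype.ofFinite T
  rw [← card_ne (0 : U)]
  have e : (Σ Q : T, {v : V W ((Q : Sylow 2 G) : Subgroup G) // v ≠ 0}) ≃ {u : U // u ≠ 0} := by
    refine Equiv.ofBijective (fun p => ⟨⟨(p.2 : V W ((p.1 : Sylow 2 G) : Subgroup G)),
      hU _ p.1.2 p.2.1.2⟩, fun h0 => p.2.2 (Subtype.ext
        (congrArg (fun u : U => (u : W)) h0))⟩) ⟨?_, ?_⟩
    · rintro ⟨⟨Q, hQ⟩, ⟨⟨v, hv⟩, hv0⟩⟩ ⟨⟨Q', hQ'⟩, ⟨⟨v', hv'⟩, hv0'⟩⟩ hvv
      have h1 : v = v' := congrArg (fun u : {u : U // u ≠ 0} => ((u : U) : W)) hvv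
      subst h1
      have h2 : v ≠ 0 := fun h0 => hv0 (Subtype.ext h0)
      have h3 : Q = Q' := h.sylow_unique h2 hv hv'
      subst h3
      rfl
    · rintro ⟨⟨u, hu⟩, hu0⟩
      have hu0' : u ≠ 0 := fun h0 => hu0 (Subtype.ext h0)
      obtain ⟨Q, hQ⟩ := h.exists_sylow hu0'
      exact ⟨⟨⟨Q, hT Q u hu hu0' hQ⟩, ⟨⟨u, hQ⟩, fun h0 => hu0' (congrArg Subtype.val h0)⟩⟩, rfl⟩
  rw [← Nat.card_congr e, Nat.card_sigma]
  have h5 : ∀ Q : T, Nat.card {v : V W ((Q : Sylow 2 G) : Subgroup G) // v ≠ 0} =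
      Nat.card (V W (P : Subgroup G)) - 1 := by
    intro Q
    rw [card_ne, card_V_eq (Q : Sylow 2 G) P]
  rw [Finset.sum_congr rfl (fun Q _ => h5 Q), Finset.sum_const, smul_eq_mul, Finset.card_univ,
    Nat.card_eq_fintype_card (α := T)]

/-- F6 -/
theorem SMod.card_W [Finite G] [Finite W] (h : SMod G W) (P : Sylow 2 G) :
    Nat.card W - 1 = Nat.card (Sylow 2 G) * (Nat.card (V W (P : Subgroup G)) - 1) := by
  have h1 := h.card_union P ⊤ Set.univ (fun _ _ => le_top) (fun _ _ _ _ _ => Set.mem_univ _)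
  rwa [Nat.card_congr (Equiv.Set.univ _), Nat.card_congr AddSubgroup.topEquiv.toEquiv] at h1

theorem SMod.mem_iff_V_le [Finite G] (h : SMod G W) (hne : ∃ w : W, w ≠ 0) {z : G} {k : ℕ}
    (hz : orderOf z = 2 ^ k) (P : Sylow 2 G) : z ∈ P ↔ V W (P : Subgroup G) ≤ fx W z := by
  constructor
  · intro hzP w hw
    exact hw z hzP
  · intro hle
    obtain ⟨w, hw, hwP⟩ := h.exists_mem_V hne P
    exact h.mem_of_fix hw hwP hz (hle hwP)

theorem SMod.card_fx [Finite G] [Finite W] (h : SMod G W) {z : G} {k : ℕ}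
    (hz : orderOf z = 2 ^ k) (P : Sylow 2 G) :
    Nat.card (fx W z) - 1 = Nat.card {Q : Sylow 2 G | z ∈ Q} *
      (Nat.card (V W (P : Subgroup G)) - 1) := by
  apply h.card_union P (fx W z) {Q : Sylow 2 G | z ∈ Q}
  · intro Q hQ w hw
    exact hw z hQ
  · intro Q w hw hw0 hwQ
    exact h.mem_of_fix hw0 hwQ hz hw

end Cfsg.Agent.H538.SM
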