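import Cfsg.Agent.H538.RealGraphC
import Cfsg.Agent.S0200

/-!
# The module situation behind S4187 (helper538)

`SMod G W`: the finite group `G` acts faithfully on the elementary abelian 2-group `W`, every
non-zero vector is fixed by a Sylow 2-subgroup, its stabilizer has no real elements of odd order,
and the class sizes of the real elements of odd prime order are prime to the orbit sizes.
-/

set_option autoImplicit false

namespace Cfsg.Agent.H538.SM

open Cfsg.Agent.H538.RealBasics Cfsg.Agent.H538.RealGraph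

structure SMod (G W : Type*) [Group G] [AddCommGroup W] [DistribMulAction G W] : Prop where
  faithful : ∀ g : G, (∀ w : W, g • w = w) → g = 1
  two : ∀ w : W, w + w = 0
  odd : ∀ w : W, w ≠ 0 → ¬ 2 ∣ (MulAction.stabilizer G w).index
  noinv : ∀ w : W, w ≠ 0 → ∀ x t : G, x • w = w → t • w = w → Odd (orderOf x) →
    t * x * t⁻¹ = x⁻¹ → x = 1
  cop : ∀ x t : G, t * x * t⁻¹ = x⁻¹ → (orderOf x).Prime → Odd (orderOf x) →
    ∀ w : W, w ≠ 0 → (cs x).Coprime (MulAction.stabilizer G w).index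

variable {G W : Type*} [Group G] [AddCommGroup W] [DistribMulAction G W]

theorem stab_index_dvd [Finite G] (N : Subgroup G) [hN : N.Normal] (w : W) :
    (MulAction.stabilizer N w).index ∣ (MulAction.stabilizer G w).index := by
  have h1 : MulAction.stabilizer N w = (MulAction.stabilizer G w).subgroupOf N := by
    ext g; rfl
  rw [h1]
  exact Cfsg.Agent.Lib.GoldschmidtFusion.relIndex_dvd_index_of_normal_right _ _

/-- `SMod` is inherited by normal subgroups -/
theorem SMod.sub [Finite G] (h : SMod G W) (N : Subgroup G) [hN : N.Normal] : SMod N W where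
  faithful := fun g hg => by
    have := h.faithful (g : G) (fun w => hg w)
    exact Subtype.ext this
  two := h.two
  odd := fun w hw h2 => h.odd w hw (h2.trans (stab_index_dvd N w))
  noinv := fun w hw x t hx ht ho hxt => by
    have := h.noinv w hw (x : G) (t : G) hx ht (by rwa [Subgroup.orderOf_coe]) (by
      have := congrArg (Subtype.val) hxt
      simpa using this)
    exact Subtype.ext this
  cop := fun x t hxt hp ho w hw => by
    have h1 := h.cop (x : G) (t : G) (by
      have := congrArg (Subtype.val) hxt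
      simpa using this) (by rwa [Subgroup.orderOf_coe]) (by rwa [Subgroup.orderOf_coe]) w hw
    exact (h1.coprime_dvd_left (cs_dvd_of_normal N x)).coprime_dvd_right (stab_index_dvd N w)

/-- the subgroup of vectors fixed by `P` -/
def V (W : Type*) [AddCommGroup W] [DistribMulAction G W] (P : Subgroup G) : AddSubgroup W where
  carrier := {w | ∀ s ∈ P, s • w = w}
  zero_mem' := fun s _ => smul_zero s
  add_mem' := fun {a b} ha hb s hs => by rw [smul_add, ha s hs, hb s hs]
  neg_mem' := fun {a} ha s hs => by rw [smul_neg, ha s hs]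

theorem mem_V {P : Subgroup G} {w : W} : w ∈ V W P ↔ ∀ s ∈ P, s • w = w := Iff.rfl

theorem le_stab_of_mem_V {P : Subgroup G} {w : W} (h : w ∈ V W P) :
    P ≤ MulAction.stabilizer G w := fun s hs => h s hs

theorem SMod.exists_sylow [Finite G] (h : SMod G W) {w : W} (hw : w ≠ 0) :
    ∃ P : Sylow 2 G, w ∈ V W (P : Subgroup G) := by
  obtain ⟨P, hP⟩ := exists_sylow_le (p := 2) _ (h.odd w hw)
  exact ⟨P, fun s hs => hP hs⟩

/-- the stabilizer of a non-zero vector has a normal Sylow 2-subgroup -/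
theorem SMod.sylow_stab_normal [Finite G] (h : SMod G W) {w : W} (hw : w ≠ 0)
    (Q : Sylow 2 (MulAction.stabilizer G w)) : (Q : Subgroup (MulAction.stabilizer G w)).Normal := by
  rw [← Cfsg.Agent.S3861.result Q]
  intro x hx1 hxo hxr
  obtain ⟨t, ht⟩ := isConj_iff.1 hxr
  apply hx1
  have := h.noinv w hw (x : G) (t : G) x.2 t.2 (by rwa [Subgroup.orderOf_coe]) (by
    have := congrArg (Subtype.val) ht
    simpa using this)
  exact Subtype.ext this

theorem SMod.sylow_unique [Finite G] (h : SMod G W) {w : W} (hw : w ≠ 0) {P Q : Sylow 2 G}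
    (hP : w ∈ V W (P : Subgroup G)) (hQ : w ∈ V W (Q : Subgroup G)) : P = Q := by
  have h1 := le_stab_of_mem_V hP
  have h2 := le_stab_of_mem_V hQ
  have hn := h.sylow_stab_normal hw (P.subtype h1)
  have := Sylow.unique_of_normal _ hn
  have h3 : Q.subtype h2 = P.subtype h1 := Subsingleton.elim _ _
  exact (Sylow.subtype_injective h3.symm)

/-- `2`-elements fixing `w` lie in the Sylow 2-subgroup fixing `w` -/
theorem SMod.mem_of_fix [Finite G] (h : SMod G W) {w : W} (hw : w ≠ 0) {P : Sylow 2 G}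
    (hP : w ∈ V W (P : Subgroup G)) {z : G} {k : ℕ} (hz : orderOf z = 2 ^ k) (hzw : z • w = w) :
    z ∈ P := by
  have h1 := le_stab_of_mem_V hP
  have hn := h.sylow_stab_normal hw (P.subtype h1)
  have := Sylow.unique_of_normal _ hn
  have hzs : z ∈ MulAction.stabilizer G w := hzw
  obtain ⟨R, hR⟩ := exists_mem_sylow (x := (⟨z, hzs⟩ : MulAction.stabilizer G w)) (p := 2) (k := k)
    (by rwa [Subgroup.orderOf_mk])
  have h3 : R = P.subtype h1 := Subsingleton.elim _ _
  rw [h3] at hR
  exact hR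

theorem smul_mem_V {P : Sylow 2 G} {w : W} (hP : w ∈ V W (P : Subgroup G)) (g : G) :
    g • w ∈ V W ((g • P : Sylow 2 G) : Subgroup G) := by
  intro s hs
  rw [Sylow.coe_subgroup_smul, Subgroup.mem_pointwise_smul_iff_inv_smul_mem] at hs
  have h1 := hP _ hs
  rw [← map_inv, MulAut.smul_def, MulAut.conj_apply, inv_inv] at h1
  calc s • g • w = g • ((g⁻¹ * s * g) • w) := by simp only [smul_smul]; congr 1; group
    _ = g • w := by rw [h1]

/-- elements fixing `w` normalise the Sylow 2-subgroup fixing `w` -/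
theorem SMod.smul_eq_of_fix [Finite G] (h : SMod G W) {w : W} (hw : w ≠ 0) {P : Sylow 2 G}
    (hP : w ∈ V W (P : Subgroup G)) {g : G} (hg : g • w = w) : g • P = P := by
  apply h.sylow_unique hw _ hP
  have := smul_mem_V hP g
  rwa [hg] at this

theorem SMod.exists_mem_V [Finite G] (h : SMod G W) (hne : ∃ w : W, w ≠ 0) (P : Sylow 2 G) :
    ∃ w : W, w ≠ 0 ∧ w ∈ V W (P : Subgroup G) := by
  obtain ⟨w, hw⟩ := hne
  obtain ⟨Q, hQ⟩ := h.exists_sylow hw
  obtain ⟨g, rfl⟩ := MulAction.exists_smul_eq G Q P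
  exact ⟨g • w, (smul_ne_zero_iff_ne g).2 hw, smul_mem_V hQ g⟩

/-- `G = C(x) G_w` for real elements `x` of odd prime order -/
theorem SMod.exists_centralizing [Finite G] (h : SMod G W) {x t : G} (ht : t * x * t⁻¹ = x⁻¹)
    (hp : (orderOf x).Prime) (ho : Odd (orderOf x)) {w : W} (hw : w ≠ 0) (g : G) :
    ∃ c d : G, c * x = x * c ∧ d • w = w ∧ g = c * d := by
  obtain ⟨c, hc, d, hd, hcd⟩ := (Cfsg.Agent.S0007.result _ _ (h.cop x t ht hp ho w hw)).2 g
  exact ⟨c, d, Subgroup.mem_centralizer_singleton_iff.1 hc, hd, hcd⟩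

/-- any odd order element inverted by an element is inverted by a `2`-element -/
theorem exists_two_element [Finite G] {x t : G} (ht : t * x * t⁻¹ = x⁻¹) :
    ∃ s : G, (∃ k, orderOf s = 2 ^ k) ∧ s * x * s⁻¹ = x⁻¹ := by
  obtain ⟨⟨s, hs, hsx⟩, -, -⟩ := Cfsg.Agent.S3863.result x (isConj_of_conj_eq ht)
  exact ⟨s, hs, hsx⟩

/-- F3: real elements of odd prime order normalise no Sylow 2-subgroup -/
theorem SMod.real_smul_ne [Finite G] (h : SMod G W) (hne : ∃ w : W, w ≠ 0) {x t : G}
    (ht : t * x * t⁻¹ = x⁻¹) (hp : (orderOf x).Prime) (ho : Odd (orderOf x)) (P : Sylow 2 G) :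
    x • P ≠ P := by
  intro hxP
  obtain ⟨s, ⟨k, hk⟩, hs⟩ := exists_two_element ht
  obtain ⟨Q, hQ⟩ := exists_mem_sylow hk
  obtain ⟨w, hw, hwQ⟩ := h.exists_mem_V hne Q
  obtain ⟨g, hg⟩ := MulAction.exists_smul_eq G Q P
  obtain ⟨c, d, hc, hd, rfl⟩ := h.exists_centralizing ht hp ho hw g
  have hdQ : d • Q = Q := h.smul_eq_of_fix hw hwQ hd
  rw [mul_smul, hdQ] at hg
  -- `x` normalises `Q`
  have hxQ : x • Q = Q := by
    have h1 : c • x • Q = c • Q := by
      rw [smul_smul, hc, ← smul_smul, hg, hxP]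
    exact smul_left_cancel c h1
  -- `x ^ 2 ∈ Q`
  have h2 : x * s * x⁻¹ ∈ (Q : Subgroup G) := by
    rw [← hxQ, Sylow.coe_subgroup_smul]
    exact Subgroup.smul_mem_pointwise_smul s (MulAut.conj x) _ hQ
  have h3 : x * x ∈ (Q : Subgroup G) := by
    have h4 : x * x = (x * s * x⁻¹) * s⁻¹ := by
      have h5 : s * x⁻¹ * s⁻¹ = x := by
        have := congrArg (fun y => y⁻¹) hs
        simpa [mul_assoc] using this
      calc x * x = x * (s * x⁻¹ * s⁻¹) := by rw [h5]
        _ = _ := by group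
    rw [h4]
    exact mul_mem h2 (inv_mem hQ)
  obtain ⟨j, hj⟩ := (Q.isPGroup') ⟨x * x, h3⟩
  have h6 : (x * x) ^ 2 ^ j = 1 := congrArg Subtype.val hj
  rw [← pow_two, ← pow_mul, ← pow_succ'] at h6
  have h7 := orderOf_dvd_of_pow_eq_one h6
  have h8 := (Nat.prime_dvd_prime_iff_eq hp Nat.prime_two).1 (hp.dvd_of_dvd_pow h7)
  rw [h8] at ho
  exact absurd ho (by decide)

/-- F2: real elements of odd prime order fix no non-zero vector -/
theorem SMod.real_no_fix [Finite G] (h : SMod G W) {x t : G}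
    (ht : t * x * t⁻¹ = x⁻¹) (hp : (orderOf x).Prime) (ho : Odd (orderOf x)) {w : W}
    (hxw : x • w = w) : w = 0 := by
  by_contra hw
  obtain ⟨P, hP⟩ := h.exists_sylow hw
  exact h.real_smul_ne ⟨w, hw⟩ ht hp ho P (h.smul_eq_of_fix hw hP hxw)

/-- F4: every involution inverts some real element of odd prime order -/
theorem SMod.normal_two [Finite G] (h : SMod G W) (N : Subgroup G)
    (hN : N.Normal) (h2 : IsPGroup 2 N) {z : G} (hz : z ∈ N) : z = 1 := by
  apply h.faithful
  intro w
  by_cases hw : w = 0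
  · rw [hw, smul_zero]
  obtain ⟨P, hP⟩ := h.exists_sylow hw
  obtain ⟨Q, hQ⟩ := h2.exists_le_sylow
  obtain ⟨g, rfl⟩ := MulAction.exists_smul_eq G Q P
  apply hP
  rw [Sylow.coe_subgroup_smul, Subgroup.mem_pointwise_smul_iff_inv_smul_mem]
  apply hQ
  rw [← map_inv, MulAut.smul_def, MulAut.conj_apply]
  exact hN.conj_mem z hz g⁻¹

theorem SMod.exists_inverted [Finite G] (h : SMod G W) {z : G} (hz : orderOf z = 2) :
    ∃ x : G, z * x * z⁻¹ = x⁻¹ ∧ (orderOf x).Prime ∧ Odd (orderOf x) := by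
  obtain ⟨y, hy1, hyo, hy⟩ := Cfsg.Agent.S0200.result z hz (by
    intro N hN h2 hzN
    have := h.normal_two N hN h2 hzN
    rw [this, orderOf_one] at hz
    exact absurd hz (by decide))
  obtain ⟨p, hp, hpy⟩ := Nat.exists_prime_and_dvd (n := orderOf y) (by
    rwa [Ne, orderOf_eq_one_iff])
  have hpo : orderOf (y ^ (orderOf y / p)) = p := by
    rw [orderOf_pow_of_dvd (Nat.div_pos (Nat.le_of_dvd (orderOf_pos y) hpy) hp.pos).ne'
      (Nat.div_dvd_of_dvd hpy), Nat.div_div_self hpy (orderOf_pos y).ne']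
  refine ⟨y ^ (orderOf y / p), ?_, ?_, ?_⟩
  · rw [← conj_pow, hy, inv_pow]
  · rw [hpo]; exact hp
  · rw [hpo]; exact hyo.of_dvd_nat hpy

end Cfsg.Agent.H538.SM
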