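import Cfsg.Agent.H538.StarTI
import Cfsg.Agent.H538.ConjAut

/-!
# Parameters, and the case of 64 vectors (helper538)
-/

set_option autoImplicit false

open scoped Pointwise

namespace Cfsg.Agent.H538.SM

open Cfsg.Agent.H538.RealBasics Cfsg.Agent.H538.RealGraph Cfsg.Agent.H538.TwoClosed
open Cfsg.Agent.H538.ConjAut

variable {G W : Type*} [Group G] [AddCommGroup W] [DistribMulAction G W]

theorem card_modEq_fix [Finite W] {x : G} {p k : ℕ} [hp : Fact p.Prime] (ho : orderOf x = p ^ k)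
    (U : AddSubgroup W) (hU : ∀ u ∈ U, x • u ∈ U) :
    Nat.card U ≡ Nat.card (U ⊓ fx W x : AddSubgroup W) [MOD p] := by
  have hfin : IsOfFinOrder x := by
    rw [← orderOf_pos_iff, ho]; exact pow_pos hp.1.pos k
  have hpow : ∀ n : ℕ, ∀ u ∈ U, x ^ n • u ∈ U := by
    intro n
    induction n with
    | zero => intro u hu; simpa using hu
    | succ n ih => intro u hu; rw [pow_succ, mul_smul]; exact ih _ (hU u hu)
  let S : SubMulAction (Subgroup.zpowers x) W :=
    { carrier := U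
      smul_mem' := by
        rintro ⟨c, hc⟩ u hu
        obtain ⟨n, rfl⟩ := (hfin.mem_powers_iff_mem_zpowers.2 hc)
        exact hpow n u hu }
  have h1 : IsPGroup p (Subgroup.zpowers x) := IsPGroup.of_card (n := k) (by
    rw [Nat.card_zpowers, ho])
  have hSf : Finite S := inferInstanceAs (Finite U)
  have h2 := h1.card_modEq_card_fixedPoints S
  have h3 : Nat.card (MulAction.fixedPoints (Subgroup.zpowers x) S) =
      Nat.card (U ⊓ fx W x : AddSubgroup W) := by
    refine Nat.card_congr ⟨fun s => ⟨(s : S), (s : S).2, ?_⟩, fun s => ⟨⟨(s : W), s.2.1⟩, ?_⟩,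
      fun s => rfl, fun s => rfl⟩
    · have := s.2 ⟨x, Subgroup.mem_zpowers x⟩
      exact congrArg Subtype.val this
    · rintro ⟨c, hc⟩
      obtain ⟨n, rfl⟩ := (hfin.mem_powers_iff_mem_zpowers.2 hc)
      exact Subtype.ext (pow_smul_eq s.2.2 n)
  rw [h3] at h2
  exact h2

theorem SMod.modEq_one [Finite G] [Finite W] (h : SMod G W) {x t : G} (ht : t * x * t⁻¹ = x⁻¹)
    (hp : (orderOf x).Prime) (ho : Odd (orderOf x)) (U : AddSubgroup W) (hU : ∀ u ∈ U, x • u ∈ U) :
    Nat.card U ≡ 1 [MOD orderOf x] := by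
  have := Fact.mk hp
  have h1 := card_modEq_fix (p := orderOf x) (k := 1) (pow_one _).symm U hU
  have h2 : (U ⊓ fx W x : AddSubgroup W) = ⊥ := by
    rw [eq_bot_iff]
    rintro u ⟨-, hu⟩
    exact h.real_no_fix ht hp ho hu
  rw [h2, AddSubgroup.card_bot] at h1
  exact h1

/-- parameters -/
theorem SMod.params [Finite G] [Finite W] (h : SMod G W) (hne : ∃ w : W, w ≠ 0) {z : G}
    (hz : orderOf z = 2) (P : Sylow 2 G) : ∃ m c : ℕ, Nat.card W = 2 ^ (2 * m) ∧
      Nat.card (V W (P : Subgroup G)) = 2 ^ c ∧ 0 < c ∧ c ∣ m ∧ 0 < m ∧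
      ∀ z' : G, orderOf z' = 2 → Nat.card (fx W z') = 2 ^ m := by
  obtain ⟨m, hm⟩ := card_pow_two h.two (fx W z)
  obtain ⟨c, hc⟩ := card_pow_two h.two (V W (P : Subgroup G))
  have hW := h.card_fx_sq hz
  have hWm : Nat.card W = 2 ^ (2 * m) := by
    rw [← hW, hm, ← pow_mul, mul_comm]
  have hc0 : 0 < c := by
    rcases Nat.eq_zero_or_pos c with h0 | h0
    · exfalso
      rw [h0, pow_zero] at hc
      obtain ⟨w, hw, hwP⟩ := h.exists_mem_V hne P
      have := (Nat.card_eq_one_iff_unique.1 hc).1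
      exact hw (congrArg Subtype.val (Subsingleton.elim (⟨w, hwP⟩ : V W (P : Subgroup G)) 0))
    · exact h0
  have hm0 : 0 < m := by
    rcases Nat.eq_zero_or_pos m with h0 | h0
    · exfalso
      rw [h0, mul_zero, pow_zero] at hWm
      obtain ⟨w, hw⟩ := hne
      have := (Nat.card_eq_one_iff_unique.1 hWm).1
      exact hw (Subsingleton.elim w 0)
    · exact h0
  refine ⟨m, c, hWm, hc, hc0, ?_, hm0, ?_⟩
  · have h1 := h.card_fx (k := 1) (by rw [hz]; rfl) P
    rw [hm, hc] at h1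
    have h2 := Nat.pow_sub_one_gcd_pow_sub_one 2 c m
    have h3 : 2 ^ c - 1 ∣ 2 ^ m - 1 := ⟨_, by rw [h1, mul_comm]⟩
    rw [Nat.gcd_eq_left h3] at h2
    have h4 : 2 ^ c = 2 ^ Nat.gcd c m := by
      have h5 : 1 ≤ 2 ^ c := Nat.one_le_two_pow
      have h6 : 1 ≤ 2 ^ Nat.gcd c m := Nat.one_le_two_pow
      omega
    have h7 := Nat.pow_right_injective (le_refl 2) h4
    rw [h7]
    exact Nat.gcd_dvd_right c m
  · intro z' hz'
    have h1 := h.card_fx_sq hz'
    rw [hWm, mul_comm, pow_mul] at h1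
    exact Nat.pow_left_injective (by norm_num : (2 : ℕ) ≠ 0) h1

/-- some power of a non-trivial element of a 2-group is an involution -/
theorem exists_involution_pow [Finite G] {P : Sylow 2 G} {s : G} (hs : s ∈ P) (h1 : s ≠ 1) :
    ∃ n : ℕ, orderOf (s ^ n) = 2 := by
  obtain ⟨k, hk⟩ := (IsPGroup.iff_orderOf.1 P.isPGroup') ⟨s, hs⟩
  have hk' : orderOf s = 2 ^ k := by rw [← hk, Subgroup.orderOf_mk]
  rcases Nat.eq_zero_or_pos k with h0 | h0
  · rw [h0, pow_zero, orderOf_eq_one_iff] at hk'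
    exact absurd hk' h1
  · refine ⟨2 ^ (k - 1), ?_⟩
    rw [orderOf_pow_of_dvd (by positivity) (by rw [hk']; exact pow_dvd_pow 2 (by omega)), hk']
    rw [Nat.pow_div (by omega) (by norm_num)]
    have : k - (k - 1) = 1 := by omega
    rw [this, pow_one]

/-- if `|V P| ^ 2 = |W|` the group is solvable -/
theorem SMod.solvable_of_card_sq [Finite G] [Finite W] (h : SMod G W) (P : Sylow 2 G)
    (hP : Nat.card (V W (P : Subgroup G)) ^ 2 = Nat.card W) : Group.IsSolvable G := by
  by_cases hne : ∃ w : W, w ≠ 0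
  swap
  · push Not at hne
    have : Subsingleton G := ⟨fun a b => by
      rw [h.faithful a (fun w => by rw [hne w, smul_zero]),
        h.faithful b (fun w => by rw [hne w, smul_zero])]⟩
    infer_instance
  apply h.solvable_of_ti
  intro Q R s hsQ hsR hs1
  obtain ⟨n, hn⟩ := exists_involution_pow hsQ hs1
  have key : ∀ T : Sylow 2 G, s ∈ T → V W (T : Subgroup G) = fx W (s ^ n) := by
    intro T hsT
    have hle : V W (T : Subgroup G) ≤ fx W (s ^ n) := fun w hw => hw _ (pow_mem hsT n)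
    apply AddSubgroup.eq_of_le_of_card_ge hle
    have h1 := h.card_fx_sq hn
    rw [← hP, card_V_eq P T] at h1
    exact (Nat.pow_left_injective (by norm_num : (2 : ℕ) ≠ 0) h1).le
  obtain ⟨w, hw, hwQ⟩ := h.exists_mem_V hne Q
  have hwR : w ∈ V W (R : Subgroup G) := by rw [key R hsR, ← key Q hsQ]; exact hwQ
  exact h.sylow_unique hw hwQ hwR

/-- no real elements of order `7` -/
theorem SMod.ne_seven [Finite G] (h : SMod G W) (hne : ∃ w : W, w ≠ 0) {x t : G}
    (ht : t * x * t⁻¹ = x⁻¹) (ho : orderOf x = 7) : False := by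
  have hp : (orderOf x).Prime := by rw [ho]; norm_num
  have hodd : Odd (orderOf x) := by rw [ho]; decide
  have hx7 : x ^ 7 = 1 := by rw [← ho]; exact pow_orderOf_eq_one x
  -- invariance principle
  have hinv : ∀ A : W → Prop, (∀ c : G, c * x = x * c → ∀ w, A w → A (c • w)) → A 0 →
      ∀ (g : G) (w : W), A w → A (g • w) := by
    intro A hA h0 g w hw
    by_cases hw0 : w = 0
    · rw [hw0, smul_zero]; exact h0
    obtain ⟨c, d, hc, hd, rfl⟩ := h.exists_centralizing ht hp hodd hw0 g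
    rw [mul_smul, hd]
    exact hA c hc w hw
  have hcomm : ∀ (c : G), c * x = x * c → ∀ (n : ℕ) (w : W), x ^ n • c • w = c • x ^ n • w := by
    intro c hc n w
    rw [smul_smul, smul_smul]
    congr 1
    exact ((show Commute c x from hc).pow_right n).eq.symm
  have hxt : ∀ (n : ℕ) (w : W), x ^ n • t • w = t • (x⁻¹) ^ n • w := by
    intro n w
    rw [smul_smul, smul_smul]
    congr 1
    have h1 : t⁻¹ * x * t = x⁻¹ := by
      have := congrArg (fun y => t⁻¹ * y⁻¹ * t) ht
      simpa [mul_assoc] using this.symm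
    have h2 : t⁻¹ * x ^ n * t = (x⁻¹) ^ n := by
      rw [← h1]
      have := conj_pow (i := n) (a := t⁻¹) (b := x)
      rw [inv_inv] at this
      exact this.symm
    rw [← h2]; group
  -- the two kernels
  let A₁ : W → Prop := fun w => x ^ 3 • w + x ^ 1 • w + w = 0
  let A₂ : W → Prop := fun w => x ^ 3 • w + x ^ 2 • w + w = 0
  have i1 : ∀ (g : G) (w : W), A₁ w → A₁ (g • w) := by
    apply hinv
    · intro c hc w hw
      change x ^ 3 • c • w + x ^ 1 • c • w + c • w = 0
      rw [hcomm c hc, hcomm c hc, ← smul_add, ← smul_add]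
      change x ^ 3 • w + x ^ 1 • w + w = 0 at hw
      rw [hw, smul_zero]
    · change x ^ 3 • (0 : W) + x ^ 1 • (0 : W) + 0 = 0
      simp
  have i2 : ∀ (g : G) (w : W), A₂ w → A₂ (g • w) := by
    apply hinv
    · intro c hc w hw
      change x ^ 3 • c • w + x ^ 2 • c • w + c • w = 0
      rw [hcomm c hc, hcomm c hc, ← smul_add, ← smul_add]
      change x ^ 3 • w + x ^ 2 • w + w = 0 at hw
      rw [hw, smul_zero]
    · change x ^ 3 • (0 : W) + x ^ 2 • (0 : W) + 0 = 0
      simp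
  have hinter : ∀ w, A₁ w → A₂ w → w = 0 := by
    intro w h1 h2
    change x ^ 3 • w + x ^ 1 • w + w = 0 at h1
    change x ^ 3 • w + x ^ 2 • w + w = 0 at h2
    have h3 : x ^ 1 • w = x ^ 2 • w := by
      have h4 : x ^ 3 • w + x ^ 1 • w + w = x ^ 3 • w + x ^ 2 • w + w := by rw [h1, h2]
      exact add_left_cancel (add_right_cancel h4)
    have h5 : w = x • w := by
      rw [pow_two, mul_smul, pow_one] at h3
      exact smul_left_cancel x h3
    exact h.real_no_fix ht hp hodd h5.symm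
  have e1 : ∀ n : ℕ, n ≤ 7 → (x⁻¹) ^ n = x ^ (7 - n) := by
    intro n hn
    rw [inv_pow, inv_eq_iff_mul_eq_one, ← pow_add]
    have : n + (7 - n) = 7 := by omega
    rw [this, hx7]
  have k1 : ∀ w, A₁ w → w = 0 := by
    intro w hw
    have h1 : A₂ (t • w) := by
      change x ^ 3 • t • w + x ^ 2 • t • w + t • w = 0
      rw [hxt, hxt, ← smul_add, ← smul_add, e1 3 (by norm_num), e1 2 (by norm_num)]
      have h2 : x ^ (7 - 3) • w + x ^ (7 - 2) • w + w = x ^ 4 • (x ^ 3 • w + x ^ 1 • w + w) := by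
        rw [smul_add, smul_add, smul_smul, smul_smul, ← pow_add, ← pow_add, hx7, one_smul]
        abel
      change x ^ 3 • w + x ^ 1 • w + w = 0 at hw
      rw [h2, hw, smul_zero, smul_zero]
    have h3 := hinter _ (i1 t w hw) h1
    exact (smul_eq_zero_iff_eq t).1 h3
  have k2 : ∀ w, A₂ w → w = 0 := by
    intro w hw
    have h1 : A₁ (t • w) := by
      change x ^ 3 • t • w + x ^ 1 • t • w + t • w = 0
      rw [hxt, hxt, ← smul_add, ← smul_add, e1 3 (by norm_num), e1 1 (by norm_num)]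
      have h2 : x ^ (7 - 3) • w + x ^ (7 - 1) • w + w = x ^ 4 • (x ^ 3 • w + x ^ 2 • w + w) := by
        rw [smul_add, smul_add, smul_smul, smul_smul, ← pow_add, ← pow_add, hx7, one_smul]
        abel
      change x ^ 3 • w + x ^ 2 • w + w = 0 at hw
      rw [h2, hw, smul_zero, smul_zero]
    have h3 := hinter _ h1 (i2 t w hw)
    exact (smul_eq_zero_iff_eq t).1 h3
  -- the product
  obtain ⟨w, hw⟩ := hne
  apply hw
  have h2 : x ^ 1 • w + w = 0 := by
    apply k2
    change x ^ 3 • (x ^ 1 • w + w) + x ^ 2 • (x ^ 1 • w + w) + (x ^ 1 • w + w) = 0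
    apply k1
    change x ^ 3 • (x ^ 3 • (x ^ 1 • w + w) + x ^ 2 • (x ^ 1 • w + w) + (x ^ 1 • w + w)) +
      x ^ 1 • (x ^ 3 • (x ^ 1 • w + w) + x ^ 2 • (x ^ 1 • w + w) + (x ^ 1 • w + w)) +
      (x ^ 3 • (x ^ 1 • w + w) + x ^ 2 • (x ^ 1 • w + w) + (x ^ 1 • w + w)) = 0
    simp only [smul_add, smul_smul, ← pow_add]
    norm_num only
    rw [hx7, one_smul]
    have t0 := h.two w
    have t1 := h.two (x ^ 1 • w)
    have t2 := h.two (x ^ 2 • w)
    have t3 := h.two (x ^ 3 • w)
    have t4 := h.two (x ^ 4 • w)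
    have t5 := h.two (x ^ 5 • w)
    have t6 := h.two (x ^ 6 • w)
    have hsum : w + x ^ 6 • w + (x ^ 6 • w + x ^ 5 • w) + (x ^ 4 • w + x ^ 3 • w) +
        (x ^ 5 • w + x ^ 4 • w + (x ^ 4 • w + x ^ 3 • w) + (x ^ 2 • w + x ^ 1 • w)) +
        (x ^ 4 • w + x ^ 3 • w + (x ^ 3 • w + x ^ 2 • w) + (x ^ 1 • w + w)) =
        (w + w) + (x ^ 6 • w + x ^ 6 • w) + (x ^ 5 • w + x ^ 5 • w) + (x ^ 4 • w + x ^ 4 • w) +
        (x ^ 4 • w + x ^ 4 • w) + (x ^ 3 • w + x ^ 3 • w) + (x ^ 3 • w + x ^ 3 • w) +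
        (x ^ 2 • w + x ^ 2 • w) + (x ^ 1 • w + x ^ 1 • w) := by abel
    rw [hsum, t0, t1, t2, t3, t4, t5, t6]
    simp
  rw [pow_one] at h2
  apply h.real_no_fix ht hp hodd
  rw [← h.neg_eq w, smul_neg, neg_inj]
  have h3 : x • w = -w := eq_neg_of_add_eq_zero_left h2
  rw [h3, h.neg_eq]

/-- powers of prime order -/
theorem exists_pow_prime [Finite G] {x : G} {p : ℕ} (hp : p.Prime) (hpx : p ∣ orderOf x) :
    ∃ n : ℕ, orderOf (x ^ n) = p := by
  refine ⟨orderOf x / p, ?_⟩
  rw [orderOf_pow_of_dvd (Nat.div_pos (Nat.le_of_dvd (orderOf_pos x) hpx) hp.pos).ne'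
    (Nat.div_dvd_of_dvd hpx), Nat.div_div_self hpx (orderOf_pos x).ne']

/-- a central involution of a non-trivial Sylow 2-subgroup -/
theorem exists_central_involution [Finite G] {z₀ : G} (hz₀ : orderOf z₀ = 2) (P : Sylow 2 G) :
    ∃ z ∈ P, orderOf z = 2 ∧ ∀ s ∈ P, s * z = z * s := by
  have hnt : Nontrivial (P : Subgroup G) := by
    rw [← Finite.one_lt_card_iff_nontrivial]
    have h2 : 2 ∣ Nat.card (P : Subgroup G) := by
      apply P.dvd_card_of_dvd_card
      rw [← hz₀]; exact orderOf_dvd_natCard z₀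
    exact lt_of_lt_of_le one_lt_two (Nat.le_of_dvd Nat.card_pos h2)
  have h1 := P.isPGroup'.center_nontrivial
  obtain ⟨u, hu⟩ := exists_ne (1 : Subgroup.center (P : Subgroup G))
  have huP : ((u : (P : Subgroup G)) : G) ∈ P := (u : (P : Subgroup G)).2
  have hu1 : ((u : (P : Subgroup G)) : G) ≠ 1 := fun h => hu (Subtype.ext (Subtype.ext h))
  obtain ⟨n, hn⟩ := exists_involution_pow huP hu1
  refine ⟨_, pow_mem huP n, hn, fun s hs => ?_⟩
  have h2 := Subgroup.mem_center_iff.1 u.2 ⟨s, hs⟩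
  have h3 : Commute s ((u : (P : Subgroup G)) : G) := congrArg Subtype.val h2
  exact (h3.pow_right n).eq

/-- the orbit sizes are divisible by the number of Sylow 2-subgroups -/
theorem SMod.card_sylow_dvd [Finite G] (h : SMod G W) {w : W} (hw : w ≠ 0) :
    Nat.card (Sylow 2 G) ∣ (MulAction.stabilizer G w).index := by
  obtain ⟨P, hP⟩ := h.exists_sylow hw
  rw [P.card_eq_index_normalizer]
  apply Subgroup.index_dvd_of_le
  intro g hg
  exact Sylow.smul_eq_iff_mem_normalizer.1 (h.smul_eq_of_fix hw hP hg)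

/-- the case of 64 vectors and Sylow 2-subgroups fixing just one vector does not occur -/
theorem SMod.false_of_64 [Finite G] [Finite W] (h : SMod G W) (hne : ∃ w : W, w ≠ 0) {z₀ : G}
    (hz₀ : orderOf z₀ = 2) (P : Sylow 2 G) (hW : Nat.card W = 2 ^ (2 * 3))
    (hP : Nat.card (V W (P : Subgroup G)) = 2) : False := by
  obtain ⟨z, hzP, hz, hzc⟩ := exists_central_involution hz₀ P
  have hzz : z * z = 1 := by
    have := pow_orderOf_eq_one z
    rwa [hz, pow_two] at this
  have hfx : ∀ u : G, orderOf u = 2 → Nat.card (fx W u) = 8 := by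
    intro u hu
    have h1 := h.card_fx_sq hu
    rw [hW] at h1
    have : (2 : ℕ) ^ (2 * 3) = 8 ^ 2 := by norm_num
    rw [this] at h1
    exact Nat.pow_left_injective (by norm_num : (2 : ℕ) ≠ 0) h1
  have hsyl : Nat.card (Sylow 2 G) = 63 := by
    have h1 := h.card_W P
    rw [hW, hP] at h1
    norm_num at h1
    exact h1.symm
  -- real elements of odd prime order have order 3
  have hthree : ∀ x t : G, t * x * t⁻¹ = x⁻¹ → (orderOf x).Prime → Odd (orderOf x) →
      orderOf x = 3 := by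
    intro x t ht hp ho
    have h1 := h.modEq_one ht hp ho ⊤ (fun _ _ => AddSubgroup.mem_top _)
    rw [Nat.card_congr AddSubgroup.topEquiv.toEquiv, hW] at h1
    have h2 : orderOf x ∣ 2 ^ (2 * 3) - 1 := (Nat.modEq_iff_dvd' (by norm_num)).1 h1.symm
    have h3 : orderOf x ∣ 3 * 3 * 7 := by norm_num at h2 ⊢; exact h2
    rcases hp.dvd_mul.1 h3 with h4 | h4
    · rcases hp.dvd_mul.1 h4 with h5 | h5
      · exact (Nat.prime_dvd_prime_iff_eq hp Nat.prime_three).1 h5
      · exact (Nat.prime_dvd_prime_iff_eq hp Nat.prime_three).1 h5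
    · exact (h.ne_seven hne ht ((Nat.prime_dvd_prime_iff_eq hp (by norm_num)).1 h4)).elim
  -- they do not commute with involutions
  have hcomm : ∀ x t u : G, t * x * t⁻¹ = x⁻¹ → (orderOf x).Prime → Odd (orderOf x) →
      orderOf u = 2 → ¬ Commute x u := by
    intro x t u ht hp ho hu hxu
    have h1 := h.modEq_one ht hp ho (fx W u) (fun w hw => by
      rw [mem_fx] at hw ⊢
      rw [smul_smul, ← hxu.eq, mul_smul, hw])
    rw [hfx u hu, hthree x t ht hp ho] at h1
    revert h1; decide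
  -- the centralizer of `z` normalises `P`
  have hD : ∀ c : G, c * z = z * c → c • P = P := by
    have hle : (P : Subgroup G) ≤ Subgroup.centralizer ({z} : Set G) := fun s hs =>
      Subgroup.mem_centralizer_singleton_iff.2 (hzc s hs)
    have hn : ((P.subtype hle : Sylow 2 (Subgroup.centralizer ({z} : Set G))) :
        Subgroup (Subgroup.centralizer ({z} : Set G))).Normal := by
      rw [← Cfsg.Agent.S3861.result (P.subtype hle)]
      intro x hx1 hxo hxr
      obtain ⟨t, ht⟩ := isConj_iff.1 hxr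
      obtain ⟨p, hp, hpx⟩ := Nat.exists_prime_and_dvd (n := orderOf x) (by
        rwa [Ne, orderOf_eq_one_iff])
      obtain ⟨n, hn⟩ := exists_pow_prime hp hpx
      have hxz : Commute (x : G) z := Subgroup.mem_centralizer_singleton_iff.1 x.2
      have ht' : (t : G) * x * (t : G)⁻¹ = (x : G)⁻¹ := congrArg Subtype.val ht
      have hn' : orderOf ((x : G) ^ n) = p := by rw [← hn, ← Subgroup.orderOf_coe]; rfl
      apply hcomm ((x : G) ^ n) t z _ _ _ hz (hxz.pow_left n)
      · rw [← conj_pow, ht', inv_pow]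
      · rw [hn']; exact hp
      · rw [hn']; exact hxo.of_dvd_nat hpx
    intro c hc
    have hc' : c ∈ Subgroup.centralizer ({z} : Set G) := Subgroup.mem_centralizer_singleton_iff.2 hc
    rw [Sylow.smul_eq_iff_mem_normalizer]
    change c ∈ Subgroup.normalizer ((P : Subgroup G) : Set G)
    rw [Subgroup.mem_normalizer_iff]
    intro s
    constructor
    · intro hs
      exact hn.conj_mem ⟨s, hle hs⟩ hs ⟨c, hc'⟩
    · intro hs
      have := hn.conj_mem ⟨c * s * c⁻¹, hle hs⟩ hs ⟨c⁻¹, inv_mem hc'⟩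
      have h1 : c⁻¹ * (c * s * c⁻¹) * c⁻¹⁻¹ = s := by group
      have h2 : c⁻¹ * (c * s * c⁻¹) * c⁻¹⁻¹ ∈ P := this
      rwa [h1] at h2
  -- an element `x` of order 3 inverted by `z`
  obtain ⟨x, hx, hp, ho⟩ := h.exists_inverted hz
  set K := Subgroup.centralizer ({x} : Set G) with hK
  have hzK : ∀ k, k ∈ K ↔ z * k * z⁻¹ ∈ K := by
    have hzx : z⁻¹ = z := inv_eq_of_mul_eq_one_left hzz
    have aux : ∀ k, k ∈ K → z * k * z⁻¹ ∈ K := by
      intro k hk
      rw [hK, Subgroup.mem_centralizer_singleton_iff] at hk ⊢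
      have h1 : k * x⁻¹ = x⁻¹ * k := (show Commute k x from hk).inv_right.eq
      have h2 : z * x⁻¹ * z⁻¹ = x := by
        have := congrArg (fun y => y⁻¹) hx
        simpa [mul_assoc] using this
      calc z * k * z⁻¹ * x = z * k * z⁻¹ * (z * x⁻¹ * z⁻¹) := by rw [h2]
        _ = z * (k * x⁻¹) * z⁻¹ := by group
        _ = z * (x⁻¹ * k) * z⁻¹ := by rw [h1]
        _ = (z * x⁻¹ * z⁻¹) * (z * k * z⁻¹) := by group
        _ = _ := by rw [h2]
    intro k
    refine ⟨aux k, fun hk => ?_⟩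
    have := aux _ hk
    have h3 : z * (z * k * z⁻¹) * z⁻¹ = (z * z) * k * (z * z)⁻¹ := by group
    rw [h3, hzz] at this
    simpa using this
  have hKodd : Odd (Nat.card K) := by
    rw [← Nat.not_even_iff_odd, even_iff_two_dvd]
    intro h2
    obtain ⟨u, hu⟩ := exists_prime_orderOf_dvd_card' 2 h2
    have hu2 : orderOf (u : G) = 2 := by rwa [Subgroup.orderOf_coe]
    have h3 : Commute (u : G) x := Subgroup.mem_centralizer_singleton_iff.1 u.2
    exact hcomm x z u hx hp ho hu2 h3.symm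
  have : Fact (Nat.Prime 7) := ⟨by norm_num⟩
  obtain ⟨R, hR⟩ := exists_fixed_sylow K z hzK hzz hKodd 7
  -- `z` centralises `R`
  have hRz : ∀ k : K, k ∈ R → (k : G) * z = z * k := by
    intro k hk
    set v : K := conjAut K z hzK k * k⁻¹ with hv
    have hvR : v ∈ R := mul_mem (hR k hk) (inv_mem hk)
    have hzi : z⁻¹ = z := inv_eq_of_mul_eq_one_left hzz
    have hvc : (v : G) = z * k * z⁻¹ * (k : G)⁻¹ := rfl
    have hvi : z * (v : G) * z⁻¹ = (v : G)⁻¹ := by
      rw [hvc]
      calc z * (z * k * z⁻¹ * (k : G)⁻¹) * z⁻¹ = (z * z) * k * z⁻¹ * (k : G)⁻¹ * z⁻¹ := by group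
        _ = k * z * (k : G)⁻¹ * z⁻¹ := by rw [hzz, hzi]; group
        _ = _ := by group
    by_cases hv1 : v = 1
    · have h1 : z * k * z⁻¹ * (k : G)⁻¹ = 1 := by rw [← hvc, hv1]; rfl
      have h2 : z * k * z⁻¹ = k := mul_inv_eq_one.1 h1
      calc (k : G) * z = z * k * z⁻¹ * z := by rw [h2]
        _ = z * k := by group
    · exfalso
      obtain ⟨j, hj⟩ := (IsPGroup.iff_orderOf.1 R.isPGroup') ⟨v, hvR⟩
      have hj' : orderOf (v : G) = 7 ^ j := by
        rw [← hj, Subgroup.orderOf_mk, Subgroup.orderOf_coe]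
      have hj0 : j ≠ 0 := by
        rintro rfl
        rw [pow_zero, orderOf_eq_one_iff] at hj'
        exact hv1 (Subtype.ext hj')
      obtain ⟨n, hn⟩ := exists_pow_prime (x := (v : G)) (p := 7) (by norm_num) (by
        rw [hj']; exact dvd_pow_self 7 hj0)
      apply h.ne_seven hne (x := (v : G) ^ n) (t := z) _ hn
      rw [← conj_pow, hvi, inv_pow]
  -- contradiction by indices
  have hle : (R : Subgroup K).map K.subtype ≤ Subgroup.normalizer (P : Set G) := by
    rintro _ ⟨k, hk, rfl⟩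
    exact Sylow.smul_eq_iff_mem_normalizer.1 (hD k (hRz k hk))
  have h1 := Subgroup.index_dvd_of_le hle
  rw [← P.card_eq_index_normalizer, hsyl, Subgroup.index_map_subtype] at h1
  have h7 : 7 ∣ (R : Subgroup K).index * K.index := (show 7 ∣ 63 by norm_num).trans h1
  rcases (Nat.Prime.dvd_mul (by norm_num)).1 h7 with h8 | h8
  · exact R.not_dvd_index h8
  · obtain ⟨w, hw⟩ := hne
    have h9 := h.cop x z hx hp ho w hw
    have h10 : 7 ∣ (MulAction.stabilizer G w).index := by
      refine dvd_trans ?_ (h.card_sylow_dvd hw)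
      rw [hsyl]; norm_num
    have h11 := Nat.dvd_gcd h8 h10
    rw [Nat.Coprime.gcd_eq_one h9] at h11
    norm_num at h11

end Cfsg.Agent.H538.SM
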