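import Cfsg.Agent.H538.StarCount
import Cfsg.Agent.H538.TwoClosed
import Cfsg.Agent.S0215

/-!
# The TI case (helper538)
-/

set_option autoImplicit false

open scoped Pointwise

namespace Cfsg.Agent.H538.SM

open Cfsg.Agent.H538.RealBasics Cfsg.Agent.H538.RealGraph Cfsg.Agent.H538.TwoClosed

variable {G W : Type*} [Group G] [AddCommGroup W] [DistribMulAction G W]

/-- a `2`-element normalising a Sylow 2-subgroup lies in it -/
theorem mem_sylow_of_smul_eq [Finite G] {z : G} {k : ℕ} (hz : orderOf z = 2 ^ k) {P : Sylow 2 G}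
    (h : z • P = P) : z ∈ P := by
  have h1 : IsPGroup 2 (Subgroup.zpowers z) := IsPGroup.of_card (n := k) (by rw [Nat.card_zpowers, hz])
  have h2 := h1.inf_normalizer_sylow P
  have h3 : z ∈ Subgroup.zpowers z ⊓ Subgroup.normalizer (P : Set G) :=
    ⟨Subgroup.mem_zpowers z, Sylow.smul_eq_iff_mem_normalizer.1 h⟩
  rw [h2] at h3
  exact h3.2

theorem zpow_smul_eq {X : Type*} [MulAction G X] {v : G} {a : X} (h : v • a = a) (n : ℕ) :
    v ^ n • a = a := by
  induction n with
  | zero => simp
  | succ n ih => rw [pow_succ, mul_smul, h, ih]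

/-- if two involutions map `α` to the same Sylow subgroup and Sylow subgroups intersect trivially,
then they are equal -/
theorem SMod.ti_inj [Finite G] (h : SMod G W) (hne : ∃ w : W, w ≠ 0)
    (hti : ∀ P Q : Sylow 2 G, ∀ s : G, s ∈ P → s ∈ Q → s ≠ 1 → P = Q) {α : Sylow 2 G} {t t' : G}
    (ht : orderOf t = 2) (ht' : orderOf t' = 2) (hα : t ∉ α) (heq : t • α = t' • α) : t = t' := by
  by_contra htt
  have htt1 : t * t = 1 := by
    have := pow_orderOf_eq_one t
    rwa [ht, pow_two] at this
  have htt2 : t' * t' = 1 := by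
    have := pow_orderOf_eq_one t'
    rwa [ht', pow_two] at this
  have hti1 : t⁻¹ = t := inv_eq_of_mul_eq_one_left htt1
  have hti2 : t'⁻¹ = t' := inv_eq_of_mul_eq_one_left htt2
  set v := t * t' with hv
  have hv1 : v ≠ 1 := by
    intro h1
    apply htt
    rw [hv, mul_eq_one_iff_eq_inv, hti2] at h1
    exact h1
  have hvα : v • α = α := by
    rw [hv, mul_smul, ← heq, smul_smul, htt1, one_smul]
  have hinv : t * v * t⁻¹ = v⁻¹ := by
    rw [hv, mul_inv_rev, hti1, hti2]
    calc t * (t * t') * t = (t * t) * t' * t := by group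
      _ = t' * t := by rw [htt1, one_mul]
  by_cases hodd : ∃ p : ℕ, p.Prime ∧ p ≠ 2 ∧ p ∣ orderOf v
  · obtain ⟨p, hp, hp2, hpv⟩ := hodd
    have hpo : orderOf (v ^ (orderOf v / p)) = p := by
      rw [orderOf_pow_of_dvd (Nat.div_pos (Nat.le_of_dvd (orderOf_pos v) hpv) hp.pos).ne'
        (Nat.div_dvd_of_dvd hpv), Nat.div_div_self hpv (orderOf_pos v).ne']
    refine h.real_smul_ne (x := v ^ (orderOf v / p)) (t := t) hne ?_ ?_ ?_ α ?_
    · rw [← conj_pow, hinv, inv_pow]
    · rw [hpo]; exact hp
    · rw [hpo]; exact hp.odd_of_ne_two hp2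
    · exact zpow_smul_eq hvα _
  · push Not at hodd
    have hv2 : ∃ k, orderOf v = 2 ^ k :=
      ⟨_, Nat.eq_prime_pow_of_unique_prime_dvd (orderOf_pos v).ne' (fun {d} hd hdv => by
        by_contra h2
        exact hodd d hd h2 hdv)⟩
    obtain ⟨k, hk⟩ := hv2
    have hvα' : v ∈ α := mem_sylow_of_smul_eq hk hvα
    have hvβ : v ∈ t • α := by
      apply mem_sylow_of_smul_eq hk
      rw [smul_smul]
      have h1 : v * t = t * v⁻¹ := by
        rw [← hinv]
        calc v * t = (t * t) * v * t⁻¹ := by rw [htt1, hti1]; group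
          _ = _ := by group
      rw [h1, mul_smul, inv_smul_eq_iff.2 hvα.symm]
    have h3 := hti _ _ v hvα' hvβ hv1
    apply hα
    apply mem_sylow_of_smul_eq (k := 1) (by rw [ht]; rfl) h3.symm

/-- in the TI case a Sylow 2-subgroup has at most one involution -/
theorem SMod.ti_unique [Finite G] (h : SMod G W) (hne : ∃ w : W, w ≠ 0)
    (hti : ∀ P Q : Sylow 2 G, ∀ s : G, s ∈ P → s ∈ Q → s ≠ 1 → P = Q) {α β : Sylow 2 G}
    (hαβ : α ≠ β) {P : Sylow 2 G} {a b : G} (ha : a ∈ P) (hb : b ∈ P) (hao : orderOf a = 2)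
    (hbo : orderOf b = 2) : a = b := by
  classical
  by_contra hab
  have hne1 : ∀ s : G, orderOf s = 2 → s ≠ 1 := by
    rintro s hs rfl
    rw [orderOf_one] at hs; exact absurd hs (by decide)
  have hex : ∀ γ : Sylow 2 G, ∃ g : G, g • P = γ := fun γ => MulAction.exists_smul_eq G P γ
  choose g hg using hex
  have hmem : ∀ γ : Sylow 2 G, ∀ s ∈ P, g γ * s * (g γ)⁻¹ ∈ γ := by
    intro γ s hs
    have h1 : MulAut.conj (g γ) • s ∈ MulAut.conj (g γ) • (P : Subgroup G) :=
      Subgroup.smul_mem_pointwise_smul s _ _ hs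
    rw [← Sylow.coe_subgroup_smul, hg γ] at h1
    exact h1
  have hord : ∀ γ : Sylow 2 G, ∀ s : G, orderOf (g γ * s * (g γ)⁻¹) = orderOf s := by
    intro γ s
    exact orderOf_injective (MulAut.conj (g γ)).toMonoidHom (MulAut.conj (g γ)).injective s
  -- the injection
  let F : {β : Sylow 2 G // β ≠ α} × Bool → {β : Sylow 2 G // β ≠ α} := fun p =>
    ⟨(g p.1 * (bif p.2 then a else b) * (g p.1)⁻¹) • α, by
      intro h1
      have h2 : orderOf (g p.1 * (bif p.2 then a else b) * (g p.1)⁻¹) = 2 := by
        rw [hord]; cases p.2 <;> assumption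
      have h3 := mem_sylow_of_smul_eq (k := 1) (by rw [h2]; rfl) h1
      have h4 := hmem p.1 (bif p.2 then a else b) (by cases p.2 <;> assumption)
      exact p.1.2 (hti _ _ _ h4 h3 (hne1 _ h2))⟩
  have hF : Function.Injective F := by
    rintro ⟨⟨γ, hγ⟩, ε⟩ ⟨⟨δ, hδ⟩, ε'⟩ hFF
    have h1 : (g γ * (bif ε then a else b) * (g γ)⁻¹) • α =
        (g δ * (bif ε' then a else b) * (g δ)⁻¹) • α := congrArg Subtype.val hFF
    have h2 : orderOf (g γ * (bif ε then a else b) * (g γ)⁻¹) = 2 := by
      rw [hord]; cases ε <;> assumption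
    have h2' : orderOf (g δ * (bif ε' then a else b) * (g δ)⁻¹) = 2 := by
      rw [hord]; cases ε' <;> assumption
    have h4 := hmem γ (bif ε then a else b) (by cases ε <;> assumption)
    have h4' := hmem δ (bif ε' then a else b) (by cases ε' <;> assumption)
    have h5 : g γ * (bif ε then a else b) * (g γ)⁻¹ ∉ α := fun h6 =>
      hγ (hti _ _ _ h4 h6 (hne1 _ h2))
    have h7 := h.ti_inj hne hti h2 h2' h5 h1
    have h8 : γ = δ := by
      rw [← h7] at h4'
      exact hti _ _ _ h4 h4' (hne1 _ h2)
    subst h8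
    have h9 : (bif ε then a else b) = (bif ε' then a else b) := by
      have := congrArg (fun s => (g γ)⁻¹ * s * g γ) h7
      simpa [mul_assoc] using this
    cases ε <;> cases ε' <;> simp_all
  have hcard := Nat.card_le_card_of_injective F hF
  rw [Nat.card_prod, Nat.card_eq_fintype_card (α := Bool), Fintype.card_bool] at hcard
  have hpos : 0 < Nat.card {β : Sylow 2 G // β ≠ α} := by
    have : Nonempty {β : Sylow 2 G // β ≠ α} := ⟨⟨β, hαβ.symm⟩⟩
    exact Nat.card_pos
  omega

/-- the TI case -/
theorem SMod.solvable_of_ti [Finite G] (h : SMod G W)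
    (hti : ∀ P Q : Sylow 2 G, ∀ s : G, s ∈ P → s ∈ Q → s ≠ 1 → P = Q) : Group.IsSolvable G := by
  by_cases hne : ∃ w : W, w ≠ 0
  swap
  · push Not at hne
    have : Subsingleton G := ⟨fun a b => by
      rw [h.faithful a (fun w => by rw [hne w, smul_zero]),
        h.faithful b (fun w => by rw [hne w, smul_zero])]⟩
    infer_instance
  obtain ⟨P⟩ : Nonempty (Sylow 2 G) := inferInstance
  by_cases huniq : ∀ Q : Sylow 2 G, Q = P
  · apply solvable_of_normal_sylow P
    have : Subsingleton (Sylow 2 G) := ⟨fun a b => by rw [huniq a, huniq b]⟩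
    exact Sylow.normal_of_subsingleton P
  push Not at huniq
  obtain ⟨Q, hQ⟩ := huniq
  -- an involution
  have hPne : ∃ u ∈ P, orderOf u = 2 := by
    have h2 : 2 ∣ Nat.card (P : Subgroup G) := by
      rcases (IsPGroup.iff_card.1 P.isPGroup') with ⟨n, hn⟩
      rcases Nat.eq_zero_or_pos n with h0 | h0
      · exfalso
        rw [h0, pow_zero] at hn
        have h3 : Nat.card (Q : Subgroup G) = 1 := by
          rw [← hn, Q.card_eq_multiplicity, P.card_eq_multiplicity]
        apply hQ
        apply Sylow.ext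
        rw [Subgroup.card_eq_one.1 hn, Subgroup.card_eq_one.1 h3]
      · rw [hn]; exact dvd_pow_self 2 h0.ne'
    obtain ⟨u, hu⟩ := exists_prime_orderOf_dvd_card' 2 h2
    exact ⟨u, u.2, by rw [← Subgroup.orderOf_coe] at hu; exact hu⟩
  obtain ⟨u, huP, hu⟩ := hPne
  have hu1 : u ≠ 1 := by
    rintro rfl
    rw [orderOf_one] at hu; exact absurd hu (by decide)
  have huu : u * u = 1 := by
    have := pow_orderOf_eq_one u
    rwa [hu, pow_two] at this
  have hui : u⁻¹ = u := inv_eq_of_mul_eq_one_left huu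
  have hconj : ∀ g : G, orderOf (g * u * g⁻¹) = 2 := by
    intro g
    rw [← hu]
    exact orderOf_injective (MulAut.conj g).toMonoidHom (MulAut.conj g).injective u
  obtain ⟨N, hN, hNo, hNu⟩ := Cfsg.Agent.S0215.result P u hu huP (fun g hg =>
    h.ti_unique hne hti hQ hg huP (hconj g) hu)
  have hNs : Group.IsSolvable N := Cfsg.Agent.S0205.result hNo
  -- the centralizer of `u` is solvable
  have hC : Group.IsSolvable (Subgroup.centralizer ({u} : Set G)) := by
    have hle : Subgroup.centralizer ({u} : Set G) ≤ Subgroup.normalizer (P : Set G) := by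
      intro c hc
      rw [Subgroup.mem_centralizer_singleton_iff] at hc
      rw [← Sylow.smul_eq_iff_mem_normalizer]
      have h1 : MulAut.conj c • u ∈ MulAut.conj c • (P : Subgroup G) :=
        Subgroup.smul_mem_pointwise_smul u _ _ huP
      rw [← Sylow.coe_subgroup_smul] at h1
      have h2 : MulAut.conj c • u = u := by
        change c * u * c⁻¹ = u
        rw [hc]; group
      rw [h2] at h1
      exact hti _ _ u h1 huP hu1
    have hn : Group.IsSolvable (Subgroup.normalizer (P : Set G) : Subgroup G) := by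
      apply solvable_of_normal_sylow (P.subtype Subgroup.le_normalizer)
      exact Subgroup.normal_in_normalizer
    exact Group.isSolvable_of_isSolvable_injective (f := Subgroup.inclusion hle)
      (Subgroup.inclusion_injective hle)
  rw [Group.isSolvable_iff_subgroup_quotient N]
  refine ⟨hNs, ?_⟩
  have hsurj : Function.Surjective ((QuotientGroup.mk' N).comp
      (Subgroup.centralizer ({u} : Set G)).subtype) := by
    intro q
    obtain ⟨g, rfl⟩ := QuotientGroup.mk_surjective q
    set v := g * u * g⁻¹ with hv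
    have hvv : v * v = 1 := by
      rw [hv]
      calc g * u * g⁻¹ * (g * u * g⁻¹) = g * (u * u) * g⁻¹ := by group
        _ = 1 := by rw [huu]; group
    have h1 : u * v ∈ N := by
      have := hNu g
      rw [hui] at this
      rw [hv]
      have h2 : u * (g * u * g⁻¹) = u * g * u * g⁻¹ := by group
      rw [h2]; exact this
    have hodd : Odd (orderOf (u * v)) := by
      apply hNo.of_dvd_nat
      have := Subgroup.orderOf_dvd_natCard N h1
      exact this
    obtain ⟨k, hk⟩ := hodd
    set d := (u * v) ^ (k + 1) with hd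
    have hdN : d ∈ N := pow_mem h1 _
    have h3 : u * d * u⁻¹ = d⁻¹ := by
      rw [hd, ← conj_pow, ← inv_pow]
      congr 1
      rw [hui, mul_inv_rev, hui, inv_eq_of_mul_eq_one_left hvv]
      calc u * (u * v) * u = (u * u) * v * u := by group
        _ = v * u := by rw [huu, one_mul]
    have h4 : d⁻¹ * u * d = v := by
      calc d⁻¹ * u * d = (u * d * u⁻¹) * u * d := by rw [h3]
        _ = u * (d * d) := by group
        _ = u * (u * v) := by
          rw [hd, ← pow_add]
          have : k + 1 + (k + 1) = orderOf (u * v) + 1 := by omega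
          rw [this, pow_succ, pow_orderOf_eq_one, one_mul]
        _ = (u * u) * v := by group
        _ = v := by rw [huu, one_mul]
    refine ⟨⟨d * g, ?_⟩, ?_⟩
    · rw [Subgroup.mem_centralizer_singleton_iff]
      have h5 : u * d = d * v := by rw [← h4]; group
      calc d * g * u = d * (g * u * g⁻¹) * g := by group
        _ = d * v * g := by rw [← hv]
        _ = u * (d * g) := by rw [← h5]; group
    · change (QuotientGroup.mk (d * g) : G ⧸ N) = QuotientGroup.mk g
      rw [QuotientGroup.eq]
      have : (d * g)⁻¹ * g = g⁻¹ * d⁻¹ * (g⁻¹)⁻¹ := by group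
      rw [this]
      exact hN.conj_mem _ (inv_mem hdN) _
  exact Group.isSolvable_of_surjective hsurj

end Cfsg.Agent.H538.SM
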